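import Mathlib
import Cfsg.Agent.S0494
import Cfsg.Agent.Lib.Classical.AltIso

/-!
# Facts on simple groups of order 60
-/

set_option autoImplicit false
set_option linter.all false

namespace Cfsg.Agent.Lib.ChiFour.A5

abbrev A₅ := alternatingGroup (Fin 5)

set_option maxRecDepth 100000 in
lemma a5_sq : ∀ x : A₅, x * x * x * x = 1 → x * x = 1 := by decide

set_option maxRecDepth 100000 in
lemma a5_cent : ∀ x : A₅, x ≠ 1 → x * x = 1 → (Finset.univ.filter (fun y : A₅ => x * y = y * x)).card = 4 := by decide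

set_option maxRecDepth 100000 in
lemma a5_conj : ∀ x y : A₅, x ≠ 1 → x * x = 1 → y ≠ 1 → y * y = 1 → ∃ c : A₅, c * x * c⁻¹ = y := by decide

section
variable {Q : Type*} [Group Q] [Finite Q] [IsSimpleGroup Q]

theorem sq_of_pow_four (h : Nat.card Q = 60) (x : Q) (hx : x ^ 4 = 1) : x ^ 2 = 1 := by
  obtain ⟨e⟩ := Cfsg.Agent.S0494.result (G := Q) h
  have h1 := a5_sq (e x) (by
    rw [← map_mul, ← map_mul, ← map_mul]
    have : x * x * x * x = x ^ 4 := by simp [pow_succ]
    rw [this, hx, map_one])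
  rw [← map_mul, ← map_one e] at h1
  have h2 := e.injective h1
  rw [sq, h2]

theorem card_centralizer (h : Nat.card Q = 60) (x : Q) (hx1 : x ≠ 1) (hx : x ^ 2 = 1) :
    Nat.card (Subgroup.centralizer ({x} : Set Q)) = 4 := by
  classical
  obtain ⟨e⟩ := Cfsg.Agent.S0494.result (G := Q) h
  have h1 := a5_cent (e x) (by
    intro h0
    apply hx1
    apply e.injective
    rw [h0, map_one]) (by
    rw [← map_mul, ← sq, hx, map_one])
  rw [← h1, ← Fintype.card_subtype, ← Nat.card_eq_fintype_card]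
  apply Nat.card_congr
  refine Equiv.subtypeEquiv e.toEquiv ?_
  intro y
  rw [Subgroup.mem_centralizer_singleton_iff]
  simp only [MulEquiv.toEquiv_eq_coe, EquivLike.coe_coe]
  rw [← map_mul, ← map_mul]
  constructor
  · intro h2
    rw [h2]
  · intro h2
    exact (e.injective h2).symm

theorem exists_conj (h : Nat.card Q = 60) (x y : Q) (hx1 : x ≠ 1) (hx : x ^ 2 = 1) (hy1 : y ≠ 1)
    (hy : y ^ 2 = 1) : ∃ c : Q, c * x * c⁻¹ = y := by
  obtain ⟨e⟩ := Cfsg.Agent.S0494.result (G := Q) h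
  obtain ⟨c, hc⟩ := a5_conj (e x) (e y) (by
    intro h0
    apply hx1
    apply e.injective
    rw [h0, map_one]) (by
    rw [← map_mul, ← sq, hx, map_one]) (by
    intro h0
    apply hy1
    apply e.injective
    rw [h0, map_one]) (by
    rw [← map_mul, ← sq, hy, map_one])
  refine ⟨e.symm c, ?_⟩
  apply e.injective
  rw [map_mul, map_mul, map_inv]
  simpa using hc

theorem nonempty_psl (h : Nat.card Q = 60) :
    Nonempty (Q ≃* Matrix.ProjectiveSpecialLinearGroup (Fin 2) (ZMod 5)) := by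
  haveI : Fact (Nat.Prime 5) := ⟨Nat.prime_five⟩
  haveI hs : IsSimpleGroup (Matrix.ProjectiveSpecialLinearGroup (Fin 2) (ZMod 5)) :=
    Matrix.ProjectiveSpecialLinearGroup.rank_two_simple (by
      rw [Nat.card_eq_fintype_card, ZMod.card]; norm_num)
  have hc : Nat.card (Matrix.ProjectiveSpecialLinearGroup (Fin 2) (ZMod 5)) = 60 := by
    have h1 := Cfsg.Agent.Lib.Classical.AltIso.card_psl_two_mul (F := ZMod 5)
    rw [ZMod.card, show Nat.gcd (5 - 1) 2 = 2 from rfl] at h1
    omega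
  obtain ⟨e⟩ := Cfsg.Agent.S0494.result (G := Q) h
  obtain ⟨f⟩ := Cfsg.Agent.S0494.result (G := Matrix.ProjectiveSpecialLinearGroup (Fin 2) (ZMod 5)) hc
  exact ⟨e.trans f.symm⟩

end

end Cfsg.Agent.Lib.ChiFour.A5
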