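import Mathlib
import Cfsg.Agent.Lib.Char.Linear
import Cfsg.Agent.Lib.Char.Eigen
import Cfsg.Agent.Lib.Char.Zeros
import Cfsg.Agent.Lib.Char.DetChar
import Cfsg.Agent.Lib.Char.Clifford
import Cfsg.Agent.Lib.Char.FrobSchur
import Cfsg.Agent.Lib.Zassen.Unique

/-!
# Characters with `χ(1) - χ(u) = 4` or `χ(u) = 0`: first consequences
-/

set_option autoImplicit false
set_option linter.all false

namespace Cfsg.Agent.Lib.ChiFour.Basic

open Cfsg Module
open Cfsg.Agent.Lib.Char.Basic Cfsg.Agent.Lib.Char.Ortho Cfsg.Agent.Lib.Char.Complete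
open Cfsg.Agent.Lib.Char.Linear Cfsg.Agent.Lib.Char.Clifford Cfsg.Agent.Lib.Char.Degree
open scoped ComplexConjugate

universe u' v'

/-- The hypothesis. -/
def Hyp (G : Type u') [Group G] (u : G) : Prop :=
  ∀ χ : G → ℂ, IsIrrCharacter G χ → χ ≠ (fun _ => (1 : ℂ)) → (χ 1 - χ u = 4 ∨ χ u = 0)

section General

variable {G : Type u'} [Group G] [Finite G] {u : G}

theorem Hyp.comp {H : Type u'} [Group H] (h : Hyp G u) (π : G →* H) (hπ : Function.Surjective π) :
    Hyp H (π u) := by
  intro χ hχ hne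
  have h1 := h (χ ∘ π) (isIrrCharacter_comp π hπ hχ) (by
    intro h0
    apply hne
    funext x
    obtain ⟨y, rfl⟩ := hπ x
    exact congrFun h0 y)
  simpa using h1

theorem irr_one_nat {χ : G → ℂ} (hχ : IsIrrCharacter G χ) : ∃ n : ℕ, 0 < n ∧ χ 1 = n :=
  exists_pos_deg_of_isIrr hχ

theorem norm_le_of_deg {χ : G → ℂ} (hχ : IsCharacter G χ) {n : ℕ} (h1 : χ 1 = n) (g : G) :
    ‖χ g‖ ≤ n := by
  have := norm_le_charDegree hχ g
  rwa [charDegree_eq_of_eq_natCast h1] at this

theorem linear_ne_zero {χ : G → ℂ} (hχ : IsCharacter G χ) (h1 : χ 1 = 1) (g : G) : χ g ≠ 0 := by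
  intro h0
  have := deg_one_mul hχ h1 g g⁻¹
  rw [mul_inv_cancel, h1, h0, zero_mul] at this
  exact one_ne_zero this

/-- There is no nontrivial linear character. -/
theorem Hyp.linear_eq (h : Hyp G u) {χ : G → ℂ} (hχ : IsCharacter G χ) (h1 : χ 1 = 1) :
    χ = fun _ => (1 : ℂ) := by
  by_contra hne
  have hi : IsIrrCharacter G χ := isIrrCharacter_of_deg_one hχ h1
  rcases h χ hi hne with h2 | h2
  · have h3 : χ u = -3 := by
      rw [h1] at h2
      linear_combination -h2
    have h4 := norm_le_of_deg (n := 1) hχ (by simpa using h1) u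
    rw [h3] at h4
    norm_num at h4
  · exact linear_ne_zero hχ h1 u h2

theorem Hyp.perfect (h : Hyp G u) : commutator G = ⊤ := by
  by_contra hne
  have hidx := card_linear_eq_index (G := G)
  have h0 : (commutator G).index ≠ 0 := Subgroup.index_ne_zero_of_finite
  have h1 : (commutator G).index ≠ 1 := fun h1 => hne (Subgroup.index_eq_one.mp h1)
  haveI : Finite (IrrCharacter G) := finite_irrCharacter
  haveI : Nontrivial {χ : IrrCharacter G // (χ : G → ℂ) 1 = 1} :=
    Finite.one_lt_card_iff_nontrivial.mp (by rw [hidx]; omega)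
  obtain ⟨a, b, hab⟩ := exists_pair_ne {χ : IrrCharacter G // (χ : G → ℂ) 1 = 1}
  have ha := h.linear_eq (isCharacter_of_isIrrCharacter a.1.2) a.2
  have hb := h.linear_eq (isCharacter_of_isIrrCharacter b.1.2) b.2
  exact hab (Subtype.ext (Subtype.ext (ha.trans hb.symm)))

/-- The normal closure of `u` is everything. -/
theorem Hyp.eq_top_of_mem (h : Hyp G u) (L : Subgroup G) [hL : L.Normal] (hu : u ∈ L) : L = ⊤ := by
  by_contra hne
  obtain ⟨g, hg⟩ : ∃ g, g ∉ L := by
    by_contra hcon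
    push Not at hcon
    exact hne (eq_top_iff.mpr fun x _ => hcon x)
  have hg1 : (QuotientGroup.mk g : G ⧸ L) ≠ 1 := by
    rwa [Ne, QuotientGroup.eq_one_iff]
  have : ∃ χ : IrrCharacter (G ⧸ L), (χ : G ⧸ L → ℂ) (QuotientGroup.mk g) ≠ (χ : G ⧸ L → ℂ) 1 := by
    by_contra hcon
    push Not at hcon
    exact hg1 (eq_one_of_forall_irr hcon)
  obtain ⟨χ, hχ⟩ := this
  have hsurj : Function.Surjective (QuotientGroup.mk' L) := QuotientGroup.mk'_surjective L
  have hi := isIrrCharacter_comp (QuotientGroup.mk' L) hsurj χ.2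
  have hne1 : ((χ : G ⧸ L → ℂ) ∘ (QuotientGroup.mk' L)) ≠ fun _ => (1 : ℂ) := by
    intro h0
    apply hχ
    have h1 := congrFun h0 g
    have h2 := congrFun h0 1
    simp only [Function.comp, QuotientGroup.mk'_apply] at h1 h2
    rw [h1]
    simpa using h2.symm
  have huq : (QuotientGroup.mk u : G ⧸ L) = 1 := (QuotientGroup.eq_one_iff u).mpr hu
  rcases h _ hi hne1 with h2 | h2
  · simp only [Function.comp, QuotientGroup.mk'_apply] at h2
    rw [huq] at h2
    simp at h2
  · simp only [Function.comp, QuotientGroup.mk'_apply] at h2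
    rw [huq] at h2
    exact irr_one_ne_zero χ.2 h2

/-- `ρ(u)` is not scalar if `ρ` is irreducible of degree at least two. -/
theorem Hyp.not_scalar (h : Hyp G u) {n : ℕ} (ρ : Representation ℂ G (Fin n → ℂ))
    [hρ : ρ.IsIrreducible] (hn : 1 < n) (ω : ℂ) : ρ u ≠ ω • LinearMap.id := by
  intro hω
  have hinv : ∀ g : G, ∀ v, ρ g⁻¹ (ρ g v) = v := by
    intro g v
    rw [← Module.End.mul_apply, ← map_mul]
    simp
  have hinv' : ∀ g : G, ∀ v, ρ g (ρ g⁻¹ v) = v := by
    intro g v
    rw [← Module.End.mul_apply, ← map_mul]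
    simp
  haveI : Nonempty (Fin n) := ⟨⟨0, by omega⟩⟩
  let Z : Subgroup G :=
    { carrier := {g | ∃ ω : ℂ, ρ g = ω • LinearMap.id}
      mul_mem' := by
        rintro a b ⟨x, hx⟩ ⟨y, hy⟩
        refine ⟨x * y, ?_⟩
        rw [map_mul, hx, hy]
        apply LinearMap.ext
        intro v
        simp [smul_smul, mul_comm]
      one_mem' := ⟨1, by simp; rfl⟩
      inv_mem' := by
        rintro a ⟨x, hx⟩
        have hx0 : x ≠ 0 := by
          rintro rfl
          obtain ⟨v, hv⟩ := exists_ne (0 : Fin n → ℂ)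
          have h1 := hinv a v
          rw [hx] at h1
          simp at h1
          exact hv h1.symm
        refine ⟨x⁻¹, ?_⟩
        apply LinearMap.ext
        intro v
        have h2 := hinv' a v
        rw [hx] at h2
        simp only [LinearMap.smul_apply, LinearMap.id_apply] at h2 ⊢
        calc ρ a⁻¹ v = x⁻¹ • (x • ρ a⁻¹ v) := by rw [smul_smul, inv_mul_cancel₀ hx0, one_smul]
          _ = x⁻¹ • v := by rw [h2] }
  haveI hZn : Z.Normal := by
    constructor
    rintro a ⟨x, hx⟩ g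
    refine ⟨x, ?_⟩
    rw [map_mul, map_mul, hx]
    apply LinearMap.ext
    intro v
    simp [map_smul, hinv']
  have hZ := h.eq_top_of_mem Z ⟨ω, hω⟩
  have hf : finrank ℂ (Fin n → ℂ) = n := by simp
  obtain ⟨g, hg⟩ := Cfsg.Agent.Lib.Char.Zeros.exists_character_eq_zero ρ (by rw [hf]; exact hn)
  have hgZ : g ∈ Z := by rw [hZ]; trivial
  have h5 := (Cfsg.Agent.Lib.Char.Eigen.norm_character_eq_iff_scalar ρ g).mpr hgZ
  rw [hg, hf, norm_zero] at h5
  have h6 : n = 0 := by exact_mod_cast h5.symm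
  omega

theorem Hyp.no_two (h : Hyp G u) {χ : G → ℂ} (hχ : IsIrrCharacter G χ) (h1 : χ 1 = 2)
    (h2 : χ u = -2) : False := by
  obtain ⟨n, ρ, hρ, rfl⟩ := hχ
  haveI := hρ
  have hn : n = 2 := by
    have h3 := charDegree_character ρ
    rw [charDegree_eq_of_eq_natCast (n := 2) (by simpa using h1)] at h3
    simpa using h3.symm
  subst hn
  have h3 : ‖ρ.character u‖ = (finrank ℂ (Fin 2 → ℂ) : ℝ) := by
    rw [h2]
    simp
  obtain ⟨ω, hω⟩ := (Cfsg.Agent.Lib.Char.Eigen.norm_character_eq_iff_scalar ρ u).mp h3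
  exact h.not_scalar ρ (by norm_num) ω hω

/-- Nontrivial irreducible characters have degree at least two. -/
theorem Hyp.deg_ge_two (h : Hyp G u) {χ : G → ℂ} (hχ : IsIrrCharacter G χ)
    (hne : χ ≠ fun _ => (1 : ℂ)) : ∃ d : ℕ, 2 ≤ d ∧ χ 1 = d := by
  obtain ⟨d, hd, h1⟩ := irr_one_nat hχ
  refine ⟨d, ?_, h1⟩
  by_contra hlt
  have hd1 : d = 1 := by omega
  subst hd1
  exact hne (h.linear_eq (isCharacter_of_isIrrCharacter hχ) (by simpa using h1))

end General

section Sum

variable {G : Type u'} [Group G] [Fintype G] {u : G}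

theorem isIrr_one : IsIrrCharacter G (fun _ => (1 : ℂ)) :=
  isIrrCharacter_of_deg_one isCharacter_one rfl

/-- There is an irreducible character of degree three with value `-1` at `u`. -/
theorem Hyp.exists_xi (h : Hyp G u) (hu : u ≠ 1) :
    ∃ ξ : G → ℂ, IsIrrCharacter G ξ ∧ ξ 1 = 3 ∧ ξ u = -1 := by
  classical
  by_contra hno
  push Not at hno
  haveI : Finite (IrrCharacter G) := finite_irrCharacter
  letI : Fintype (IrrCharacter G) := Fintype.ofFinite _
  have hs := sum_irr_mul_conj (G := G) u 1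
  have hc : ¬ IsConj u 1 := by
    rw [isConj_comm, isConj_one_right]
    exact hu
  rw [if_neg hc] at hs
  have hs2 := congrArg Complex.re hs
  rw [Complex.re_sum, Complex.zero_re] at hs2
  have hnn : ∀ χ : IrrCharacter G, 0 ≤ ((χ : G → ℂ) u * conj ((χ : G → ℂ) 1)).re := by
    intro χ
    by_cases hne : (χ : G → ℂ) = fun _ => (1 : ℂ)
    · rw [hne]
      simp
    · obtain ⟨d, hd, h1⟩ := h.deg_ge_two χ.2 hne
      rw [h1, Complex.conj_natCast]
      rcases h _ χ.2 hne with h2 | h2
      · have h3 : (χ : G → ℂ) u = (d : ℂ) - 4 := by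
          rw [h1] at h2
          linear_combination -h2
        have hd234 : d = 2 ∨ d = 3 ∨ 4 ≤ d := by omega
        rcases hd234 with rfl | rfl | hd4
        · exfalso
          exact h.no_two χ.2 (by simpa using h1) (by rw [h3]; norm_num)
        · exfalso
          exact hno _ χ.2 (by simpa using h1) (by rw [h3]; norm_num)
        · rw [h3]
          have : (((d : ℂ) - 4) * (d : ℂ)).re = ((d : ℝ) - 4) * d := by
            simp
          rw [this]
          have hd4' : (4 : ℝ) ≤ d := by exact_mod_cast hd4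
          nlinarith
      · rw [h2]
        simp
  have hle := Finset.single_le_sum (f := fun χ : IrrCharacter G =>
    ((χ : G → ℂ) u * conj ((χ : G → ℂ) 1)).re) (fun χ _ => hnn χ)
    (Finset.mem_univ (⟨fun _ => 1, isIrr_one⟩ : IrrCharacter G))
  simp only at hle
  rw [hs2] at hle
  simp at hle
  linarith

end Sum

section Det

variable {G : Type u'} [Group G] [Finite G]

theorem det_eq_one (hperf : commutator G = ⊤) {n : ℕ} (ρ : Representation ℂ G (Fin n → ℂ)) (g : G) :
    LinearMap.det (ρ g) = 1 := by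
  have h1 := Cfsg.Agent.Lib.Zassen.Unique.perf_hom_trivial hperf
    (Cfsg.Agent.Lib.Char.DetChar.detRep ρ) g
  have h2 := Cfsg.Agent.Lib.Char.DetChar.coe_detRep ρ g
  rw [h1] at h2
  simpa using h2.symm

/-- Eigenvalues. -/
theorem exists_eig {n : ℕ} (ρ : Representation ℂ G (Fin n → ℂ)) (g : G) :
    ∃ (b : Basis (Fin n) ℂ (Fin n → ℂ)) (μ : Fin n → ℂ), (∀ i, ρ g (b i) = μ i • b i) ∧
      (∀ i, μ i ^ orderOf g = 1) ∧ LinearMap.det (ρ g) = ∏ i, μ i := by
  classical
  obtain ⟨b, μ, h1, h2⟩ := Cfsg.Agent.Lib.Char.Eigen.exists_eigenbasis ρ g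
  have hf : finrank ℂ (Fin n → ℂ) = n := by simp
  let e : Fin (finrank ℂ (Fin n → ℂ)) ≃ Fin n := finCongr hf
  let b' := b.reindex e
  let μ' := μ ∘ e.symm
  have h1' : ∀ i, ρ g (b' i) = μ' i • b' i := by
    intro i
    simp [b', μ', Basis.reindex_apply, h1]
  refine ⟨b', μ', h1', fun i => h2 _, ?_⟩
  rw [← LinearMap.det_toMatrix b']
  have : LinearMap.toMatrix b' b' (ρ g) = Matrix.diagonal μ' := by
    ext i j
    rw [LinearMap.toMatrix_apply, h1']
    simp [Matrix.diagonal_apply, Finsupp.single_apply, eq_comm]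
    split_ifs with h
    · rw [h]
    · rfl
  rw [this, Matrix.det_diagonal]

/-- The identity in degree three. -/
theorem deg3_identity (hperf : commutator G = ⊤) (ρ : Representation ℂ G (Fin 3 → ℂ)) (g : G) :
    ρ.character (g ^ 2) = ρ.character g ^ 2 - 2 * conj (ρ.character g) := by
  classical
  obtain ⟨b, μ, h1, h2, h3⟩ := exists_eig ρ g
  rw [det_eq_one hperf, Fin.prod_univ_three] at h3
  have h4 := Cfsg.Agent.Lib.Char.Eigen.character_eq_sum_of_eigenbasis ρ b μ h1
  have h5 := Cfsg.Agent.Lib.Char.Eigen.character_pow_eq_sum_of_eigenbasis ρ b μ h1 2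
  have hnorm : ∀ i, conj (μ i) = (μ i)⁻¹ := by
    intro i
    rw [Complex.inv_eq_conj]
    exact Cfsg.Agent.Lib.Char.Eigen.norm_eq_one_of_pow_eq_one (orderOf_pos g).ne' (h2 i)
  rw [h5, h4, map_sum, Fin.sum_univ_three, Fin.sum_univ_three, Fin.sum_univ_three, hnorm, hnorm,
    hnorm]
  have h00 : μ 0 ≠ 0 := by
    intro h0
    rw [h0] at h3
    simp at h3
  have h01 : μ 1 ≠ 0 := by
    intro h0
    rw [h0] at h3
    simp at h3
  have h02 : μ 2 ≠ 0 := by
    intro h0
    rw [h0] at h3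
    simp at h3
  have e0 : (μ 0)⁻¹ = μ 1 * μ 2 := by
    field_simp
    linear_combination h3
  have e1 : (μ 1)⁻¹ = μ 0 * μ 2 := by
    field_simp
    linear_combination h3
  have e2 : (μ 2)⁻¹ = μ 0 * μ 1 := by
    field_simp
    linear_combination h3
  rw [e0, e1, e2]
  ring

/-- For an element of order dividing two: `χ(t) ≡ χ(1)` modulo four. -/
theorem inv_value (hperf : commutator G = ⊤) {n : ℕ} (ρ : Representation ℂ G (Fin n → ℂ)) {t : G}
    (ht : t ^ 2 = 1) : ∃ r : ℕ, ρ.character t = (n : ℂ) - 4 * r := by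
  classical
  obtain ⟨b, μ, h1, h2, h3⟩ := exists_eig ρ t
  rw [det_eq_one hperf] at h3
  have h4 := Cfsg.Agent.Lib.Char.Eigen.character_eq_sum_of_eigenbasis ρ b μ h1
  have hsq : ∀ i, μ i = 1 ∨ μ i = -1 := by
    intro i
    have h5 : μ i ^ 2 = 1 := by
      obtain ⟨k, hk⟩ := orderOf_dvd_of_pow_eq_one ht
      rw [hk, pow_mul, h2 i, one_pow]
    have h6 : (μ i - 1) * (μ i + 1) = 0 := by linear_combination h5
    rcases mul_eq_zero.mp h6 with h7 | h7
    · left; linear_combination h7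
    · right; linear_combination h7
  let s := Finset.univ.filter (fun i => μ i = -1)
  have hprod : ∏ i, μ i = (-1) ^ s.card := by
    rw [← Finset.prod_filter_mul_prod_filter_not Finset.univ (fun i => μ i = -1)]
    rw [Finset.prod_congr rfl (g := fun _ => (-1 : ℂ)) (by
      intro i hi
      exact (Finset.mem_filter.mp hi).2)]
    rw [Finset.prod_congr (s₁ := Finset.univ.filter (fun i => ¬ μ i = -1)) rfl (g := fun _ => (1 : ℂ)) (by
      intro i hi
      exact (hsq i).resolve_right (Finset.mem_filter.mp hi).2)]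
    simp [s]
  have hsum : ∑ i, μ i = (n : ℂ) - 2 * s.card := by
    have h7 : ∀ i, μ i = 1 - 2 * (if μ i = -1 then 1 else 0) := by
      intro i
      split_ifs with h
      · rw [h]; ring
      · rw [(hsq i).resolve_right h]; ring
    rw [Finset.sum_congr rfl (fun i _ => h7 i), Finset.sum_sub_distrib, ← Finset.mul_sum]
    simp [s, Finset.sum_ite]
  rw [hprod] at h3
  have hev : Even s.card := by
    rw [← neg_one_pow_eq_one_iff_even (R := ℂ) (by norm_num)]
    exact h3.symm
  obtain ⟨r, hr⟩ := hev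
  refine ⟨r, ?_⟩
  rw [h4, hsum, hr]
  push_cast
  ring

end Det

end Cfsg.Agent.Lib.ChiFour.Basic
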