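import Mathlib
import Cfsg.Agent.Lib.Core.Basic
import Cfsg.Agent.Lib.Zassen.Unique

/-!
# An odd normal subgroup inverted by an element of order four
-/

set_option autoImplicit false
set_option linter.all false

namespace Cfsg.Agent.Lib.ChiFour.OddPart

open Subgroup
open scoped commutatorElement

universe u'

variable {G : Type u'} [Group G] [Finite G]

/-- An automorphism of order at most two without fixed points inverts. -/
theorem inverts (Y : Subgroup G) (u : G) (h1 : ∀ y ∈ Y, u * y * u⁻¹ ∈ Y)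
    (h2 : ∀ y ∈ Y, (u * u) * y * (u * u)⁻¹ = y) (h3 : ∀ y ∈ Y, y * u = u * y → y = 1) {n : G}
    (hn : n ∈ Y) : u * n * u⁻¹ = n⁻¹ := by
  let f : Y → Y := fun m => ⟨m.1⁻¹ * (u * m.1 * u⁻¹), Y.mul_mem (Y.inv_mem m.2) (h1 _ m.2)⟩
  have hinj : Function.Injective f := by
    intro a b hab
    have e1 : a.1⁻¹ * (u * a.1 * u⁻¹) = b.1⁻¹ * (u * b.1 * u⁻¹) := congrArg Subtype.val hab
    have e2 : (b.1 * a.1⁻¹) * u = u * (b.1 * a.1⁻¹) := by
      have e3 : b.1 * a.1⁻¹ = u * b.1 * u⁻¹ * (u * a.1 * u⁻¹)⁻¹ := by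
        have e4 : u * b.1 * u⁻¹ = b.1 * (a.1⁻¹ * (u * a.1 * u⁻¹)) := by rw [e1]; group
        rw [e4]; group
      calc (b.1 * a.1⁻¹) * u = u * b.1 * u⁻¹ * (u * a.1 * u⁻¹)⁻¹ * u := by rw [← e3]
        _ = u * (b.1 * a.1⁻¹) := by group
    have e5 := h3 _ (Y.mul_mem b.2 (Y.inv_mem a.2)) e2
    apply Subtype.ext
    rw [mul_inv_eq_one] at e5
    exact e5.symm
  have hsurj := Finite.injective_iff_surjective.mp hinj
  obtain ⟨m, hm⟩ := hsurj ⟨n, hn⟩
  have hm' : m.1⁻¹ * (u * m.1 * u⁻¹) = n := congrArg Subtype.val hm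
  rw [← hm']
  have e6 := h2 _ m.2
  calc u * (m.1⁻¹ * (u * m.1 * u⁻¹)) * u⁻¹ = (u * m.1 * u⁻¹)⁻¹ * ((u * u) * m.1 * (u * u)⁻¹) := by group
    _ = (u * m.1 * u⁻¹)⁻¹ * m.1 := by rw [e6]
    _ = _ := by group

/-- Commutativity from inversion. -/
theorem comm_of_inverts (Y : Subgroup G) (u : G) (h : ∀ n ∈ Y, u * n * u⁻¹ = n⁻¹) {a b : G}
    (ha : a ∈ Y) (hb : b ∈ Y) : a * b = b * a := by
  have h1 := h _ (Y.mul_mem ha hb)
  have h2 : u * (a * b) * u⁻¹ = (u * a * u⁻¹) * (u * b * u⁻¹) := by group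
  rw [h2, h a ha, h b hb] at h1
  have h3 : (a * b)⁻¹ = (b * a)⁻¹ := by
    rw [← h1]; group
  exact inv_injective h3

/-- Two involutions whose product has odd order are conjugate by a power of the product. -/
theorem frattini_step {z w a : G} (hz : z * z = 1) (hw : w * w = 1) (ha : a = w * z) (k : ℕ)
    (hk : a ^ (2 * k + 1) = 1) : (a ^ k) * w * (a ^ k)⁻¹ = z := by
  have hzi : z⁻¹ = z := inv_eq_of_mul_eq_one_right hz
  have hwi : w⁻¹ = w := inv_eq_of_mul_eq_one_right hw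
  have h1 : z * a * z⁻¹ = a⁻¹ := by
    rw [ha, mul_inv_rev, hzi, hwi]
    calc z * (w * z) * z = z * w * (z * z) := by group
      _ = z * w := by rw [hz, mul_one]
  have h2 : ∀ n : ℕ, z * a ^ n * z⁻¹ = (a⁻¹) ^ n := by
    intro n
    rw [← h1, conj_pow]
  have h3 : w = a * z := by
    rw [ha, mul_assoc, hz, mul_one]
  have h4 : z * (a ^ k)⁻¹ = a ^ k * z := by
    have h5 := h2 k
    rw [inv_pow] at h5
    have h6 : z * (a ^ k)⁻¹ * z⁻¹ = ((a ^ k)⁻¹)⁻¹ := by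
      have := congrArg (fun x => x⁻¹) h5
      simp only [mul_inv_rev, inv_inv] at this
      rw [hzi] at this ⊢
      simpa [mul_assoc] using this
    rw [inv_inv, mul_inv_eq_iff_eq_mul] at h6
    exact h6
  calc a ^ k * w * (a ^ k)⁻¹ = a ^ k * a * (z * (a ^ k)⁻¹) := by rw [h3]; group
    _ = a ^ k * a * (a ^ k * z) := by rw [h4]
    _ = a ^ (2 * k + 1) * z := by
      rw [show 2 * k + 1 = k + 1 + k by ring, pow_add, pow_succ]
      group
    _ = z := by rw [hk, one_mul]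

/-- Conjugation action by elements acting as `±1`. -/
def PM (Y : Subgroup G) (l : G) : Prop :=
  (∀ y ∈ Y, l * y * l⁻¹ = y) ∨ (∀ y ∈ Y, l * y * l⁻¹ = y⁻¹)

/-- The main lemma: `O` is abelian. -/
theorem odd_abelian (O : Subgroup G) [hO : O.Normal] (hodd : ¬ 2 ∣ Nat.card O) (u : G)
    (hperf : commutator G = ⊤) (hcl : ∀ L : Subgroup G, L.Normal → u ∈ L → L = ⊤)
    (h4 : (u * u) * (u * u) = 1) (hcen : ∀ g : G, ⁅g, u * u⁆ ∈ O)
    (hfix : ∀ y ∈ O, y * u = u * y → y = 1) {a b : G} (ha : a ∈ O) (hb : b ∈ O) : a * b = b * a := by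
  classical
  set z := u * u with hz
  have hzi : z⁻¹ = z := inv_eq_of_mul_eq_one_right h4
  let π := QuotientGroup.mk' O
  have hπ : Function.Surjective π := QuotientGroup.mk'_surjective O
  have hπO : ∀ {x y : G}, π x = π y → x * y⁻¹ ∈ O := by
    intro x y hxy
    have h1 : π (x * y⁻¹) = 1 := by rw [map_mul, map_inv, hxy, mul_inv_cancel]
    rwa [QuotientGroup.mk'_apply, QuotientGroup.eq_one_iff] at h1
  have hπmem : ∀ {x : G}, x ∈ O → π x = 1 := by
    intro x hx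
    rw [QuotientGroup.mk'_apply, QuotientGroup.eq_one_iff]
    exact hx
  let L : Subgroup G := centralizer ({z} : Set G)
  have hmemL : ∀ {x : G}, x ∈ L ↔ z * x = x * z := by
    intro x
    exact mem_centralizer_singleton_iff.trans ⟨fun h => h.symm, fun h => h.symm⟩
  -- Frattini
  have hfr : ∀ g : G, ∃ y ∈ O, y * g ∈ L := by
    intro g
    set w := g * z * g⁻¹ with hw
    have hww : w * w = 1 := by
      rw [hw]
      calc g * z * g⁻¹ * (g * z * g⁻¹) = g * (z * z) * g⁻¹ := by group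
        _ = 1 := by rw [h4]; group
    set c := w * z with hc
    have hcO : c ∈ O := by
      have h1 := hcen g
      have h2 : ⁅g, z⁆ = c := by
        rw [commutatorElement_def, hc, hw, hzi]
      rw [← h2]
      exact h1
    have hcodd : Odd (orderOf c) := by
      have h1 : orderOf c ∣ Nat.card O := Subgroup.orderOf_dvd_natCard O hcO
      rw [← Nat.not_even_iff_odd]
      intro h2
      exact hodd (h2.two_dvd.trans h1)
    obtain ⟨k, hk⟩ := hcodd
    have hcp : c ^ (2 * k + 1) = 1 := by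
      rw [← hk]
      exact pow_orderOf_eq_one c
    have h1 := frattini_step h4 hww hc k hcp
    refine ⟨c ^ k, O.pow_mem hcO k, ?_⟩
    rw [hmemL]
    have h2 : (c ^ k * g) * z * (c ^ k * g)⁻¹ = z := by
      have e : (c ^ k * g) * z * (c ^ k * g)⁻¹ = c ^ k * w * (c ^ k)⁻¹ := by
        rw [hw]
        group
      rw [e, h1]
    calc z * (c ^ k * g) = ((c ^ k * g) * z * (c ^ k * g)⁻¹) * (c ^ k * g) := by rw [h2]
      _ = (c ^ k * g) * z := by group
  have huL : u ∈ L := by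
    rw [hmemL, hz]
    group
  let Y : Subgroup G := O ⊓ L
  have hmemY : ∀ {x : G}, x ∈ Y ↔ x ∈ O ∧ x ∈ L := Iff.rfl
  have hYn : ∀ l ∈ L, ∀ y ∈ Y, l * y * l⁻¹ ∈ Y := by
    intro l hl y hy
    exact ⟨hO.conj_mem _ hy.1 l, L.mul_mem (L.mul_mem hl hy.2) (L.inv_mem hl)⟩
  have hinv : ∀ y ∈ Y, u * y * u⁻¹ = y⁻¹ := by
    intro y hy
    refine inverts Y u (hYn u huL) ?_ (fun y hy h => hfix y hy.1 h) hy
    intro y hy
    have h1 := hmemL.mp hy.2
    rw [← hz, h1, mul_assoc, mul_inv_cancel, mul_one]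
  have hYcomm : ∀ a ∈ Y, ∀ b ∈ Y, a * b = b * a :=
    fun a ha b hb => comm_of_inverts Y u hinv ha hb
  -- elements acting as `±1`
  have hPMmul : ∀ l₁ l₂, l₂ ∈ L → PM Y l₁ → PM Y l₂ → PM Y (l₁ * l₂) := by
    intro l₁ l₂ hl₂ h₁ h₂
    have e : ∀ y, (l₁ * l₂) * y * (l₁ * l₂)⁻¹ = l₁ * (l₂ * y * l₂⁻¹) * l₁⁻¹ := fun y => by group
    rcases h₁ with h₁ | h₁ <;> rcases h₂ with h₂ | h₂
    · left
      intro y hy
      rw [e, h₂ y hy, h₁ y hy]
    · right
      intro y hy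
      rw [e, h₂ y hy, h₁ _ (Y.inv_mem hy)]
    · right
      intro y hy
      rw [e, h₂ y hy, h₁ y hy]
    · left
      intro y hy
      rw [e, h₂ y hy, h₁ _ (Y.inv_mem hy), inv_inv]
  have hPMinv : ∀ l, l ∈ L → PM Y l → PM Y l⁻¹ := by
    intro l hl h
    have hl' : l⁻¹ ∈ L := L.inv_mem hl
    rcases h with h | h
    · left
      intro y hy
      have h1 := h _ (hYn _ hl' y hy)
      rw [inv_inv] at h1
      have e : l * (l⁻¹ * y * l) * l⁻¹ = y := by group
      rw [inv_inv, ← h1, e]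
    · right
      intro y hy
      have h1 := h _ (hYn _ hl' y hy)
      rw [inv_inv] at h1 ⊢
      have e : l * (l⁻¹ * y * l) * l⁻¹ = y := by group
      rw [e] at h1
      exact inv_eq_iff_eq_inv.mp h1.symm
  let L₀ : Subgroup G :=
    { carrier := {l | l ∈ L ∧ PM Y l}
      mul_mem' := fun {a b} ha hb => ⟨L.mul_mem ha.1 hb.1, hPMmul a b hb.1 ha.2 hb.2⟩
      one_mem' := ⟨L.one_mem, Or.inl (fun y _ => by simp)⟩
      inv_mem' := fun {a} ha => ⟨L.inv_mem ha.1, hPMinv a ha.1 ha.2⟩ }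
  have huL₀ : u ∈ L₀ := ⟨huL, Or.inr hinv⟩
  have hconjPM : ∀ l ∈ L, ∀ x, PM Y x → PM Y (l * x * l⁻¹) := by
    intro l hl x hx
    have e : ∀ y, (l * x * l⁻¹) * y * (l * x * l⁻¹)⁻¹ = l * (x * (l⁻¹ * y * l) * x⁻¹) * l⁻¹ :=
      fun y => by group
    have hy' : ∀ y ∈ Y, l⁻¹ * y * l ∈ Y := by
      intro y hy
      have := hYn _ (L.inv_mem hl) y hy
      rwa [inv_inv] at this
    rcases hx with hx | hx
    · left
      intro y hy
      rw [e, hx _ (hy' y hy)]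
      group
    · right
      intro y hy
      rw [e, hx _ (hy' y hy)]
      group
  -- the image of `L₀` is normal
  have hnorm : (L₀.map π).Normal := by
    constructor
    rintro _ ⟨l, hl, rfl⟩ g
    obtain ⟨g', rfl⟩ := hπ g
    obtain ⟨y, hy, hyg⟩ := hfr g'
    have e : π g' = π (y * g') := by
      rw [map_mul, hπmem hy, one_mul]
    rw [e, ← map_inv, ← map_mul, ← map_mul]
    exact Subgroup.mem_map_of_mem π ⟨L.mul_mem (L.mul_mem hyg hl.1) (L.inv_mem hyg),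
      hconjPM _ hyg _ hl.2⟩
  have hD : (L₀.map π).comap π = ⊤ := by
    apply hcl _ (hnorm.comap π)
    exact Subgroup.mem_map_of_mem π huL₀
  have hall : ∀ l ∈ L, PM Y l := by
    intro l hl
    have h1 : l ∈ (L₀.map π).comap π := by rw [hD]; trivial
    obtain ⟨l₀, hl₀, h2⟩ := h1
    have h3 : l * l₀⁻¹ ∈ O := hπO h2.symm
    have h4' : l * l₀⁻¹ ∈ Y := ⟨h3, L.mul_mem hl (L.inv_mem hl₀.1)⟩
    have h5 : PM Y (l * l₀⁻¹) := by
      left
      intro y hy
      rw [hYcomm _ h4' _ hy]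
      group
    have := hPMmul _ _ hl₀.1 h5 hl₀.2
    simpa using this
  -- commutators act trivially
  have hcomm : ∀ a ∈ L, ∀ b ∈ L, ∀ y ∈ Y, ⁅a, b⁆ * y * ⁅a, b⁆⁻¹ = y := by
    intro a ha b hb y hy
    have hsw : ∀ x ∈ Y, a * (b * x * b⁻¹) * a⁻¹ = b * (a * x * a⁻¹) * b⁻¹ := by
      intro x hx
      rcases hall a ha with h1 | h1 <;> rcases hall b hb with h2 | h2
      · rw [h2 x hx, h1 x hx, h2 x hx]
      · rw [h2 x hx, h1 _ (Y.inv_mem hx), h1 x hx, h2 x hx]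
      · rw [h2 x hx, h1 x hx, h2 _ (Y.inv_mem hx)]
      · rw [h2 x hx, h1 _ (Y.inv_mem hx), h1 x hx, h2 _ (Y.inv_mem hx)]
    have hx : (b * a)⁻¹ * y * (b * a) ∈ Y := by
      have := hYn _ (L.inv_mem (L.mul_mem hb ha)) y hy
      rwa [inv_inv] at this
    have h1 := hsw _ hx
    have e1 : b * (a * ((b * a)⁻¹ * y * (b * a)) * a⁻¹) * b⁻¹ = y := by group
    rw [e1] at h1
    rw [commutatorElement_def]
    calc a * b * a⁻¹ * b⁻¹ * y * (a * b * a⁻¹ * b⁻¹)⁻¹
        = a * (b * ((b * a)⁻¹ * y * (b * a)) * b⁻¹) * a⁻¹ := by group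
      _ = y := h1
  let L₁ : Subgroup G :=
    { carrier := {l | l ∈ L ∧ ∀ y ∈ Y, l * y * l⁻¹ = y}
      mul_mem' := fun {a b} ha hb => ⟨L.mul_mem ha.1 hb.1, fun y hy => by
        have e : (a * b) * y * (a * b)⁻¹ = a * (b * y * b⁻¹) * a⁻¹ := by group
        rw [e, hb.2 y hy, ha.2 y hy]⟩
      one_mem' := ⟨L.one_mem, fun y _ => by simp⟩
      inv_mem' := fun {a} ha => ⟨L.inv_mem ha.1, fun y hy => by
        have h1 := ha.2 _ (hYn _ (L.inv_mem ha.1) y hy)
        have e : a * (a⁻¹ * y * a⁻¹⁻¹) * a⁻¹ = y := by group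
        rw [e] at h1
        exact h1.symm⟩ }
  have htop : L₁.map π = ⊤ := by
    rw [eq_top_iff, ← Cfsg.Agent.Lib.Zassen.Unique.perf_commutator_map hperf π hπ]
    rw [_root_.commutator_def, Subgroup.commutator_le]
    intro x _ x' _
    obtain ⟨g, rfl⟩ := hπ x
    obtain ⟨g', rfl⟩ := hπ x'
    obtain ⟨y, hy, hyg⟩ := hfr g
    obtain ⟨y', hy', hyg'⟩ := hfr g'
    have e1 : π g = π (y * g) := by rw [map_mul, hπmem hy, one_mul]
    have e2 : π g' = π (y' * g') := by rw [map_mul, hπmem hy', one_mul]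
    rw [e1, e2, ← map_commutatorElement]
    refine Subgroup.mem_map_of_mem π ⟨?_, hcomm _ hyg _ hyg'⟩
    rw [commutatorElement_def]
    exact L.mul_mem (L.mul_mem (L.mul_mem hyg hyg') (L.inv_mem hyg)) (L.inv_mem hyg')
  obtain ⟨c, hc, hcu⟩ : π u ∈ L₁.map π := by rw [htop]; trivial
  have huc : u * c⁻¹ ∈ Y := ⟨hπO hcu.symm, L.mul_mem huL (L.inv_mem hc.1)⟩
  have hYbot : ∀ y ∈ Y, y = 1 := by
    intro y hy
    apply hfix y hy.1
    have h1 := hc.2 y hy
    have h2 : u * y * u⁻¹ = y := by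
      have e : u * y * u⁻¹ = (u * c⁻¹) * (c * y * c⁻¹) * (u * c⁻¹)⁻¹ := by group
      rw [e, h1, hYcomm _ huc _ hy]
      group
    calc y * u = (u * y * u⁻¹) * u := by rw [h2]
      _ = u * y := by group
  -- finish
  have hzfix : ∀ y ∈ O, y * z = z * y → y = 1 := by
    intro y hy h
    exact hYbot y ⟨hy, hmemL.mpr h.symm⟩
  have hinvO : ∀ n ∈ O, z * n * z⁻¹ = n⁻¹ := by
    intro n hn
    refine inverts O z (fun y hy => hO.conj_mem y hy z) ?_ hzfix hn
    intro y _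
    rw [h4]
    simp
  exact comm_of_inverts O z hinvO ha hb

end Cfsg.Agent.Lib.ChiFour.OddPart
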