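import Mathlib
import Cfsg.Agent.Lib.ChiFour.OddPart
import Cfsg.Agent.Lib.ChiFour.A5
import Cfsg.Agent.Lib.PGroups.MaximalClass
import Cfsg.Agent.Lib.Core.SylowFacts
import Cfsg.Agent.Lib.Core.Basic
import Cfsg.Agent.Lib.PermRec.DegreeA5
import Cfsg.Agent.S0016
import Cfsg.Agent.S3378

/-!
# Groups with a quotient of order 60 and an element with centralizer of order four
-/

set_option autoImplicit false
set_option linter.all false

namespace Cfsg.Agent.Lib.ChiFour.Group

open Subgroup Cfsg
open scoped commutatorElement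

universe u'

variable {G : Type u'} [Group G] [Finite G]

theorem fact_60 : (60 : ℕ).factorization 2 = 2 := by
  have : (60 : ℕ) = 2 ^ 2 * 15 := by norm_num
  rw [this, Nat.factorization_mul (by norm_num) (by norm_num), Nat.Prime.factorization_pow Nat.prime_two]
  simp [Nat.factorization_eq_zero_of_not_dvd (show ¬ 2 ∣ 15 by norm_num)]

theorem commutator_le_of_comm {X : Type*} [Group X] (K : Subgroup X) [K.Normal]
    (h : ∀ a b : X ⧸ K, a * b = b * a) : commutator X ≤ K := by
  rw [_root_.commutator_def, Subgroup.commutator_le]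
  intro a _ b _
  rw [← QuotientGroup.eq_one_iff]
  have e : (QuotientGroup.mk ⁅a, b⁆ : X ⧸ K) = ⁅(a : X ⧸ K), (b : X ⧸ K)⁆ :=
    map_commutatorElement (QuotientGroup.mk' K) a b
  rw [e, commutatorElement_def, h a b]
  group

/-- The intersection of a Sylow subgroup with the normal subgroup of index 60. -/
theorem inf_facts (N : Subgroup G) [hN : N.Normal] (hQ : Nat.card (G ⧸ N) = 60) (S : Sylow 2 G)
    (C : Subgroup G) (hCS : C ≤ S) (hC4 : Nat.card C = 4) (u : G) (huC : u ∈ C)
    (hC : ∀ x, x * u = u * x → x ∈ C) :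
    Nat.card S = 4 * Nat.card (N.subgroupOf (S : Subgroup G)) ∧
      IsCyclic (N.subgroupOf (S : Subgroup G)) := by
  classical
  haveI : Fact (Nat.Prime 2) := ⟨Nat.prime_two⟩
  let q := QuotientGroup.mk' N
  have hq : Function.Surjective q := QuotientGroup.mk'_surjective N
  let f : (S : Subgroup G) →* G ⧸ N := q.comp (S : Subgroup G).subtype
  let W : Subgroup (S : Subgroup G) := N.subgroupOf (S : Subgroup G)
  have hker : f.ker = W := by
    ext x
    simp only [MonoidHom.mem_ker, f, W, q, MonoidHom.comp_apply, Subgroup.subtype_apply,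
      QuotientGroup.mk'_apply, QuotientGroup.eq_one_iff, Subgroup.mem_subgroupOf]
  have hrange : Nat.card f.range = 4 := by
    have h1 : f.range = (S : Subgroup G).map q := by
      rw [MonoidHom.range_comp, Subgroup.range_subtype]
    have h2 := (Sylow.mapSurjective hq S).card_eq_multiplicity
    rw [hQ, fact_60, Sylow.coe_mapSurjective] at h2
    rw [h1]
    have h3 : Nat.card ((S : Subgroup G).map q) = 2 ^ 2 := h2
    rw [h3]
    norm_num
  have hW4 : W.index = 4 := by
    rw [← hker, Subgroup.index_ker, hrange]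
  have hcard : Nat.card (S : Subgroup G) = 4 * Nat.card W := by
    have := Subgroup.card_mul_index W
    rw [hW4] at this
    rw [← this, mul_comm]
  refine ⟨hcard, ?_⟩
  obtain ⟨n, hn⟩ := IsPGroup.iff_card.mp S.isPGroup'
  have hX : Nat.card (S : Subgroup G) = 2 ^ n := hn
  let A : Subgroup (S : Subgroup G) := C.subgroupOf (S : Subgroup G)
  have hA : Nat.card A = 2 ^ 2 := by
    have : Nat.card A = Nat.card C := Nat.card_congr (Subgroup.subgroupOfEquivOfLe hCS).toEquiv
    rw [this, hC4]
    norm_num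
  have hCcomm : ∀ a ∈ C, ∀ b ∈ C, a * b = b * a := by
    intro a ha b hb
    have h1 := IsPGroup.commutative_of_card_eq_prime_sq (p := 2) (G := C) (by rw [hC4]; norm_num)
      ⟨a, ha⟩ ⟨b, hb⟩
    exact congrArg Subtype.val h1
  have hcent : centralizer (A : Set (S : Subgroup G)) = A := by
    ext x
    rw [Subgroup.mem_centralizer_iff]
    constructor
    · intro h
      have h1 := h ⟨u, hCS huC⟩ huC
      have h2 : u * (x : G) = x * u := congrArg Subtype.val h1
      exact hC x h2.symm
    · intro hx a ha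
      exact Subtype.ext (hCcomm _ ha _ hx)
  have hclass := Cfsg.Agent.Lib.PGroups.MaximalClass.class_of_self_centralizing n hX A hA hcent
  by_cases hn3 : 3 ≤ n
  · have hG2 : IsPGroup 2 (S : Subgroup G) := IsPGroup.of_card hX
    have h4 := Cfsg.Agent.Lib.PGroups.LowerCentral.index_commutator_of_maximal_class hG2 hn3 hX hclass
    obtain ⟨C', hC', hC2⟩ :=
      Cfsg.Agent.Lib.PGroups.MaximalClass.exists_cyclic_index_two_of_class hn3 hX hclass
    haveI hC'n : C'.Normal := Subgroup.normal_of_index_eq_two hC2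
    have hcle : commutator (S : Subgroup G) ≤ C' := by
      apply commutator_le_of_comm
      have h1 : Nat.card ((S : Subgroup G) ⧸ C') = 2 := by rw [← Subgroup.index_eq_card, hC2]
      haveI := isCyclic_of_prime_card h1
      letI := IsCyclic.commGroup (α := (S : Subgroup G) ⧸ C')
      exact fun a b => mul_comm a b
    haveI hWn : W.Normal := inferInstanceAs (N.subgroupOf (S : Subgroup G)).Normal
    have hWle : commutator (S : Subgroup G) ≤ W := by
      apply commutator_le_of_comm
      have h1 : Nat.card ((S : Subgroup G) ⧸ W) = 2 ^ 2 := by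
        rw [← Subgroup.index_eq_card, hW4]
        norm_num
      exact IsPGroup.commutative_of_card_eq_prime_sq (p := 2) h1
    have hEq : commutator (S : Subgroup G) = W := by
      apply Subgroup.eq_of_le_of_card_ge hWle
      have h1 := Subgroup.card_mul_index (commutator (S : Subgroup G))
      have h2 := Subgroup.card_mul_index W
      rw [h4] at h1
      rw [hW4] at h2
      have h3 : 0 < Nat.card (S : Subgroup G) := Nat.card_pos
      omega
    have hWC : W ≤ C' := hEq ▸ hcle
    haveI := hC'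
    exact Subgroup.isCyclic_of_le hWC
  · have hcA : 2 ^ 2 ≤ 2 ^ n := by
      rw [← hA, ← hX]
      exact Subgroup.card_le_card_group A
    have hn2 : 2 ≤ n := (Nat.pow_le_pow_iff_right (by norm_num)).mp hcA
    have hn' : n = 2 := by omega
    subst hn'
    have h1 : Nat.card W = 1 := by
      rw [hX] at hcard
      omega
    have h2 : W = ⊥ := Subgroup.eq_bot_of_card_eq W h1
    show IsCyclic W
    rw [h2]
    infer_instance

/-- A group of odd order: every element has odd order. -/
theorem odd_order_of_mem {O : Subgroup G} (h : ¬ 2 ∣ Nat.card O) {x : G} (hx : x ∈ O) :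
    Odd (orderOf x) := by
  rw [← Nat.not_even_iff_odd]
  intro h2
  exact h (h2.two_dvd.trans (Subgroup.orderOf_dvd_natCard O hx))

theorem oddCore_odd : ¬ 2 ∣ Nat.card (oddCore G) := by
  intro h
  have h1 := Cfsg.Agent.Lib.Core.Basic.pPrimeCore_coprime (p := 2) (G := G)
  have h2 := Nat.dvd_gcd h (dvd_refl 2)
  rw [h1.gcd_eq_one] at h2
  omega

/-- The structure of `N` over the odd core. -/
theorem odd_package (N : Subgroup G) [hN : N.Normal] [hs : IsSimpleGroup (G ⧸ N)]
    (hQ : Nat.card (G ⧸ N) = 60) (S : Sylow 2 G) (hcyc : IsCyclic (N.subgroupOf (S : Subgroup G))) :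
    oddCore G ≤ N ∧ (∀ x ∈ N, Odd (orderOf x) → x ∈ oddCore G) ∧
      (∀ x ∈ N, ∃ o ∈ oddCore G, ∃ t ∈ (S : Subgroup G) ⊓ N, x = o * t) ∧
      Nat.card N = Nat.card (oddCore G) * Nat.card ((S : Subgroup G) ⊓ N : Subgroup G) := by
  classical
  haveI : Fact (Nat.Prime 2) := ⟨Nat.prime_two⟩
  set O := oddCore G with hOdef
  have hOodd : ¬ 2 ∣ Nat.card O := oddCore_odd
  let q := QuotientGroup.mk' N
  have hq : Function.Surjective q := QuotientGroup.mk'_surjective N
  have hON : O ≤ N := by
    have h1 : (O.map q).Normal := Subgroup.Normal.map inferInstance q hq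
    rcases hs.eq_bot_or_eq_top_of_normal _ h1 with h2 | h2
    · intro x hx
      have h3 : q x ∈ O.map q := Subgroup.mem_map_of_mem q hx
      rw [h2, Subgroup.mem_bot, QuotientGroup.mk'_apply, QuotientGroup.eq_one_iff] at h3
      exact h3
    · exfalso
      have h3 : Nat.card (O.map q) ∣ Nat.card O := Subgroup.card_map_dvd O q
      rw [h2, Subgroup.card_top, hQ] at h3
      exact hOodd ((by norm_num : (2 : ℕ) ∣ 60).trans h3)
  refine ⟨hON, ?_⟩
  by_cases h2 : 2 ∣ Nat.card N
  · have hmin : (Nat.card N).minFac = 2 := (Nat.minFac_eq_two_iff _).mpr h2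
    let P : Sylow 2 N := Cfsg.Agent.Lib.Core.SylowFacts.sylowOfNormal S N
    have hPcoe : (P : Subgroup N) = (S : Subgroup G).subgroupOf N :=
      Cfsg.Agent.Lib.Core.SylowFacts.coe_sylowOfNormal S N
    have hPc : IsCyclic P := by
      let f : (P : Subgroup N) →* N.subgroupOf (S : Subgroup G) :=
        { toFun := fun x => ⟨⟨x.1.1, by
            have : x.1 ∈ (S : Subgroup G).subgroupOf N := hPcoe ▸ x.2
            exact this⟩, x.1.2⟩
          map_one' := rfl
          map_mul' := fun _ _ => rfl }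
      refine isCyclic_of_injective f ?_
      intro a b hab
      have : (f a).1.1 = (f b).1.1 := by rw [hab]
      exact Subtype.ext (Subtype.ext this)
    have hcomp := IsCyclic.isComplement' hmin hPc
    set K := (MonoidHom.transferSylow P (hPc.normalizer_le_centralizer hmin)).ker with hK
    haveI hKn : K.Normal := by rw [hK]; infer_instance
    have hcard := hcomp.card_mul_card
    have hKodd : ¬ 2 ∣ Nat.card K := by
      intro h
      apply P.not_dvd_index
      have h1 := (P : Subgroup N).card_mul_index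
      have h3 : (P : Subgroup N).index = Nat.card K := by
        have hpos : 0 < Nat.card (P : Subgroup N) := Nat.card_pos
        apply Nat.eq_of_mul_eq_mul_left hpos
        rw [h1, ← hcard, mul_comm]
      rw [h3]
      exact h
    -- elements of odd order of `N` lie in `K`
    have hF1 : ∀ x : N, Odd (orderOf x) → x ∈ K := by
      intro x hx
      rw [← QuotientGroup.eq_one_iff]
      have h3 : orderOf (x : N ⧸ K) ∣ Nat.card (N ⧸ K) := orderOf_dvd_natCard _
      have h4 : Nat.card (N ⧸ K) = Nat.card (P : Subgroup N) := by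
        have h5 := K.card_mul_index
        rw [Subgroup.index_eq_card] at h5
        have hpos : 0 < Nat.card K := Nat.card_pos
        apply Nat.eq_of_mul_eq_mul_left hpos
        rw [h5, hcard]
      obtain ⟨k, hk⟩ := IsPGroup.iff_card.mp P.isPGroup'
      rw [h4] at h3
      have h5 : Nat.card (P : Subgroup N) = 2 ^ k := hk
      rw [h5] at h3
      have h6 : orderOf (x : N ⧸ K) ∣ orderOf x := by
        apply orderOf_dvd_of_pow_eq_one
        rw [← QuotientGroup.mk_pow, pow_orderOf_eq_one]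
        rfl
      have hcop : Nat.Coprime (2 ^ k) (orderOf x) := Nat.Coprime.pow_left k (Nat.coprime_two_left.mpr hx)
      have h7 := Nat.dvd_gcd h3 h6
      rw [hcop.gcd_eq_one] at h7
      exact orderOf_eq_one_iff.mp (Nat.dvd_one.mp h7)
    let K₀ : Subgroup G := K.map N.subtype
    have hK₀card : Nat.card K₀ = Nat.card K :=
      Nat.card_congr (Subgroup.equivMapOfInjective K N.subtype N.subtype_injective).symm.toEquiv
    have hK₀odd : ¬ 2 ∣ Nat.card K₀ := by rwa [hK₀card]
    have hF1' : ∀ x ∈ N, Odd (orderOf x) → x ∈ K₀ := by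
      intro x hx hodd
      refine ⟨⟨x, hx⟩, hF1 _ ?_, rfl⟩
      rwa [Subgroup.orderOf_mk]
    have hK₀N : K₀ ≤ N := by
      rintro _ ⟨x, _, rfl⟩
      exact x.2
    have hK₀n : K₀.Normal := by
      constructor
      intro y hy g
      apply hF1' _ (hN.conj_mem _ (hK₀N hy) g)
      have h3 := odd_order_of_mem hK₀odd hy
      have h4 := MulEquiv.orderOf_eq (MulAut.conj g) y
      rw [MulAut.conj_apply] at h4
      rwa [h4]
    have hEq : K₀ = O := by
      apply le_antisymm
      · refine Cfsg.Agent.Lib.Core.Basic.le_pPrimeCore hK₀n ?_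
        rw [Nat.coprime_two_right]
        exact Nat.not_even_iff_odd.mp fun h3 => hK₀odd h3.two_dvd
      · intro x hx
        exact hF1' x (hON hx) (odd_order_of_mem hOodd hx)
    refine ⟨fun x hx hodd => hEq ▸ hF1' x hx hodd, ?_, ?_⟩
    · intro x hx
      have hsup : K ⊔ (P : Subgroup N) = ⊤ := hcomp.sup_eq_top
      have h3 : (⟨x, hx⟩ : N) ∈ K ⊔ (P : Subgroup N) := by rw [hsup]; trivial
      rw [Subgroup.mem_sup_of_normal_left] at h3
      obtain ⟨k, hk, p, hp, hkp⟩ := h3
      refine ⟨k.1, hEq ▸ ⟨k, hk, rfl⟩, p.1, ⟨?_, p.2⟩, ?_⟩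
      · have : p ∈ (S : Subgroup G).subgroupOf N := hPcoe ▸ hp
        exact this
      · have := congrArg Subtype.val hkp
        exact this.symm
    · have hmap := Cfsg.Agent.Lib.Core.SylowFacts.map_sylowOfNormal S N
      have h3 : Nat.card ((S : Subgroup G) ⊓ N : Subgroup G) = Nat.card (P : Subgroup N) := by
        have : (S : Subgroup G) ⊓ N = (P : Subgroup N).map N.subtype := hmap.symm
        rw [this]
        exact Nat.card_congr (Subgroup.equivMapOfInjective _ N.subtype N.subtype_injective).symm.toEquiv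
      rw [h3, ← hEq, hK₀card, hcard]
  · have hNO : N ≤ O := by
      refine Cfsg.Agent.Lib.Core.Basic.le_pPrimeCore hN ?_
      rw [Nat.coprime_two_right]
      exact Nat.not_even_iff_odd.mp fun h3 => h2 h3.two_dvd
    have hEq : O = N := le_antisymm hON hNO
    have hbot : ∀ t ∈ (S : Subgroup G) ⊓ N, t = 1 := by
      intro t ht
      have h3 := odd_order_of_mem h2 ht.2
      obtain ⟨k, hk⟩ := IsPGroup.iff_orderOf.mp S.isPGroup' ⟨t, ht.1⟩
      rw [Subgroup.orderOf_mk] at hk
      rw [hk] at h3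
      rcases Nat.eq_zero_or_pos k with h0 | h0
      · rw [h0, pow_zero] at hk
        exact orderOf_eq_one_iff.mp hk
      · exfalso
        have : Even (2 ^ k) := (Nat.even_pow' h0.ne').mpr even_two
        exact (Nat.not_even_iff_odd.mpr h3) this
    refine ⟨fun x hx _ => hNO hx, ?_, ?_⟩
    · intro x hx
      exact ⟨x, hNO hx, 1, one_mem _, by simp⟩
    · have h3 : (S : Subgroup G) ⊓ N = ⊥ := by
        rw [eq_bot_iff]
        intro t ht
        exact hbot t ht
      rw [h3, Subgroup.card_bot, mul_one, hEq]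

/-- A cyclic normal subgroup of a perfect group is central. -/
theorem central_of_cyclic_normal {X : Type*} [Group X] (hperf : commutator X = ⊤) (H : Subgroup X)
    [hH : H.Normal] (hc : IsCyclic H) (g : X) {h : X} (hh : h ∈ H) : g * h = h * g := by
  letI : CommGroup (MulAut H) :=
    (hc.mulAutMulEquiv _).toMonoidHom.commGroupOfInjective (hc.mulAutMulEquiv _).injective
  have h1 := Cfsg.Agent.Lib.Zassen.Unique.perf_hom_trivial hperf (MulAut.conjNormal (H := H)) g
  have h2 := congrArg (fun φ : MulAut H => ((φ ⟨h, hh⟩ : H) : X)) h1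
  simp only [MulAut.conjNormal_apply, MulAut.one_apply] at h2
  calc g * h = g * h * g⁻¹ * g := by group
    _ = h * g := by rw [h2]

/-- The case `S ∩ N = 1`. -/
theorem case_one (O N : Subgroup G) [hOn : O.Normal] [hN : N.Normal] (S : Subgroup G) (u : G)
    (hON : O = N) (hQ : Nat.card (G ⧸ N) = 60) [hs : IsSimpleGroup (G ⧸ N)]
    (hST : ∀ x ∈ S, x ∈ O → x = 1) (hcen : ∀ x, x * u = u * x → x ∈ S) (huu : u * u = 1) (hu1 : u ≠ 1) :
    IsMulCommutative O ∧ Nonempty (G ⧸ O ≃* Matrix.ProjectiveSpecialLinearGroup (Fin 2) (ZMod 5)) ∧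
      orderOf u = 2 := by
  subst hON
  refine ⟨⟨⟨fun a b => Subtype.ext ?_⟩⟩, Cfsg.Agent.Lib.ChiFour.A5.nonempty_psl hQ, ?_⟩
  · refine Cfsg.Agent.Lib.ChiFour.OddPart.comm_of_inverts O u ?_ a.2 b.2
    intro n hn
    refine Cfsg.Agent.Lib.ChiFour.OddPart.inverts O u (fun y hy => hOn.conj_mem y hy u) ?_ ?_ hn
    · intro y _
      rw [huu]
      simp
    · intro y hy h
      exact hST y (hcen y h) hy
  · exact orderOf_eq_prime (by rw [sq, huu]) hu1

/-- The case `|S ∩ N| = 2`. -/
theorem case_two (O N : Subgroup G) [hOn : O.Normal] [hN : N.Normal] (S : Sylow 2 G) (u : G)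
    (hperf : commutator G = ⊤) (hcl : ∀ L : Subgroup G, L.Normal → u ∈ L → L = ⊤)
    (hOodd : ¬ 2 ∣ Nat.card O) (hOle : O ≤ N) (hQ : Nat.card (G ⧸ N) = 60) [hs : IsSimpleGroup (G ⧸ N)]
    (huN : u ∉ N) (huu : u * u ∈ N) (hu4 : orderOf u ∣ 4)
    (hST : ∀ x ∈ (S : Subgroup G), x ∈ O → x = 1) (hcen : ∀ x, x * u = u * x → x ∈ (S : Subgroup G))
    (hcardN : Nat.card N = Nat.card O * 2)
    {t₀ : G} (ht₀S : t₀ ∈ (S : Subgroup G)) (ht₀1 : t₀ ≠ 1)
    (hdec : ∀ x ∈ N, ∃ o ∈ O, o * t₀ = x ∨ o = x)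
    (hcentral : ∀ g : G ⧸ O, g * (QuotientGroup.mk t₀) = (QuotientGroup.mk t₀) * g)
    (ht₀N : t₀ ∈ N) (ht₀2 : t₀ * t₀ = 1) :
    IsMulCommutative O ∧ Nonempty (G ⧸ O ≃* Matrix.SpecialLinearGroup (Fin 2) (ZMod 5)) ∧
      orderOf u = 4 := by
  classical
  haveI : Fact (Nat.Prime 2) := ⟨Nat.prime_two⟩
  let π := QuotientGroup.mk' O
  have hπ : Function.Surjective π := QuotientGroup.mk'_surjective O
  have hπ1 : ∀ {x : G}, x ∈ O → π x = 1 := by
    intro x hx
    rw [QuotientGroup.mk'_apply, QuotientGroup.eq_one_iff]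
    exact hx
  have hπ1' : ∀ {x : G}, π x = 1 → x ∈ O := by
    intro x hx
    rwa [QuotientGroup.mk'_apply, QuotientGroup.eq_one_iff] at hx
  let Z : G ⧸ O := π t₀
  have hZ1 : Z ≠ 1 := fun h => ht₀1 (hST _ ht₀S (hπ1' h))
  have hZZ : Z ^ 2 = 1 := by
    show (π t₀) ^ 2 = 1
    rw [← map_pow, sq, ht₀2, map_one]
  have hZc : ∀ g : G ⧸ O, g * Z = Z * g := hcentral
  let r : G ⧸ O →* G ⧸ N := QuotientGroup.map O N (MonoidHom.id G) (fun x hx => hOle hx)
  have hr : ∀ g : G, r (π g) = (QuotientGroup.mk g : G ⧸ N) := fun g => rfl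
  have hrs : Function.Surjective r := by
    intro x
    obtain ⟨g, rfl⟩ := QuotientGroup.mk_surjective x
    exact ⟨π g, hr g⟩
  have hker : ∀ x : G ⧸ O, r x = 1 → x = 1 ∨ x = Z := by
    intro x hx
    obtain ⟨g, rfl⟩ := hπ x
    rw [hr, QuotientGroup.eq_one_iff] at hx
    obtain ⟨o, ho, h1 | h1⟩ := hdec g hx
    · right
      rw [← h1, map_mul, hπ1 ho, one_mul]
    · left
      rw [← h1]
      exact hπ1 ho
  -- all involutions of the quotient lift to elements with the same square
  have hinvol : ∀ x y : G ⧸ O, r x ≠ 1 → (r x) ^ 2 = 1 → r y ≠ 1 → (r y) ^ 2 = 1 → x ^ 2 = y ^ 2 := by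
    intro x y hx1 hx2 hy1 hy2
    obtain ⟨c, hc⟩ := Cfsg.Agent.Lib.ChiFour.A5.exists_conj hQ (r x) (r y) hx1 hx2 hy1 hy2
    obtain ⟨c', rfl⟩ := hrs c
    have hxc : c' * x ^ 2 * c'⁻¹ = x ^ 2 := by
      have h1 : r (x ^ 2) = 1 := by rw [map_pow, hx2]
      rcases hker _ h1 with h2 | h2
      · rw [h2]
        simp
      · rw [h2, hZc]
        group
    have h1 : r ((c' * x * c'⁻¹) * y⁻¹) = 1 := by
      rw [map_mul, map_mul, map_mul, map_inv, map_inv, hc, mul_inv_cancel]
    have h3 : (c' * x * c'⁻¹) ^ 2 = c' * x ^ 2 * c'⁻¹ := by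
      rw [conj_pow]
    rw [← hxc, ← h3]
    rcases hker _ h1 with h2 | h2
    · rw [mul_inv_eq_one] at h2
      rw [h2]
    · rw [mul_inv_eq_iff_eq_mul] at h2
      have hZZ' : Z * Z = 1 := by rw [← sq]; exact hZZ
      rw [h2, sq, sq]
      calc Z * y * (Z * y) = Z * (y * Z) * y := by group
        _ = Z * (Z * y) * y := by rw [hZc y]
        _ = (Z * Z) * (y * y) := by group
        _ = y * y := by rw [hZZ', one_mul]
  let ub := π u
  have hub1 : r ub ≠ 1 := by
    rw [hr, Ne, QuotientGroup.eq_one_iff]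
    exact huN
  have hub2 : (r ub) ^ 2 = 1 := by
    rw [hr, sq, ← QuotientGroup.mk_mul, QuotientGroup.eq_one_iff]
    exact huu
  -- squares in Sylow subgroups
  have hsq : ∀ P : Sylow 2 (G ⧸ O), ∀ p ∈ (P : Subgroup (G ⧸ O)), (r p) ^ 2 = 1 := by
    intro P p hp
    obtain ⟨k, hk⟩ := IsPGroup.iff_orderOf.mp P.isPGroup' ⟨p, hp⟩
    rw [Subgroup.orderOf_mk] at hk
    have h1 : orderOf (r p) ∣ 2 ^ k := by
      rw [← hk]
      exact orderOf_map_dvd r p
    obtain ⟨j, -, hj⟩ := (Nat.dvd_prime_pow Nat.prime_two).mp h1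
    have h2 : 2 ^ j ∣ 60 := by
      rw [← hj, ← hQ]
      exact orderOf_dvd_natCard _
    have hj2 : j ≤ 2 := by
      by_contra h
      have h3 : 2 ^ 3 ∣ 2 ^ j := Nat.pow_dvd_pow 2 (by omega)
      have h4 := h3.trans h2
      omega
    apply Cfsg.Agent.Lib.ChiFour.A5.sq_of_pow_four hQ
    apply orderOf_dvd_iff_pow_eq_one.mp
    rw [hj]
    exact Nat.pow_dvd_pow 2 (by omega : j ≤ 2)
  have hcomm2 : ∀ P : Sylow 2 (G ⧸ O), (∀ p ∈ (P : Subgroup (G ⧸ O)), p ^ 2 = 1) →
      ∀ x ∈ (P : Subgroup (G ⧸ O)), ∀ y ∈ (P : Subgroup (G ⧸ O)), x * y = y * x := by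
    intro P h x hx y hy
    have h1 := h _ ((P : Subgroup (G ⧸ O)).mul_mem hx hy)
    have h2 := h _ hx
    have h3 := h _ hy
    rw [sq] at h1 h2 h3
    calc x * y = x * y * (y * x * (y * x)) := by
            have := h _ ((P : Subgroup (G ⧸ O)).mul_mem hy hx)
            rw [sq] at this
            rw [this, mul_one]
      _ = x * (y * y) * x * (y * x) := by group
      _ = (x * x) * (y * x) := by rw [h3]; group
      _ = y * x := by rw [h2, one_mul]
  have hGbarperf : commutator (G ⧸ O) = ⊤ :=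
    Cfsg.Agent.Lib.Zassen.Unique.perf_commutator_map hperf π hπ
  have hε : ub ^ 2 ≠ 1 := by
    intro h1
    let P₀ : Sylow 2 (G ⧸ O) := Sylow.mapSurjective hπ S
    have hP₀ : ∀ p ∈ (P₀ : Subgroup (G ⧸ O)), p ^ 2 = 1 := by
      intro p hp
      by_cases h2 : r p = 1
      · rcases hker p h2 with h3 | h3
        · rw [h3, one_pow]
        · rw [h3, hZZ]
      · rw [hinvol p ub h2 (hsq P₀ p hp) hub1 hub2, h1]
    have hZP : Z ∈ (P₀ : Subgroup (G ⧸ O)) := by
      rw [Sylow.coe_mapSurjective]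
      exact Subgroup.mem_map_of_mem π ht₀S
    exact Cfsg.Agent.Lib.Zassen.Unique.false_of_central hGbarperf P₀ (hcomm2 P₀ hP₀) hZP hZc hZ1
  have hεZ : ub ^ 2 = Z := by
    have h1 : r (ub ^ 2) = 1 := by rw [map_pow, hub2]
    exact (hker _ h1).resolve_left hε
  have huu1 : u * u ≠ 1 := by
    intro h
    apply hε
    show (π u) ^ 2 = 1
    rw [← map_pow, sq, h, map_one]
  have hord : orderOf u = 4 := by
    have h1 : orderOf u ∣ 2 ^ 2 := hu4
    obtain ⟨j, hj2, hj⟩ := (Nat.dvd_prime_pow Nat.prime_two).mp h1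
    interval_cases j
    · exfalso
      rw [pow_zero, orderOf_eq_one_iff] at hj
      apply huu1
      rw [hj, one_mul]
    · exfalso
      apply huu1
      have := pow_orderOf_eq_one u
      rw [hj, pow_one, sq] at this
      exact this
    · rw [hj]
      norm_num
  have h4 : (u * u) * (u * u) = 1 := by
    have := pow_orderOf_eq_one u
    rw [hord] at this
    have e : (u * u) * (u * u) = u ^ 4 := by simp only [pow_succ, pow_zero, one_mul, mul_assoc]
    rw [e, this]
  -- the order of the quotient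
  have h120 : Nat.card (G ⧸ O) = 120 := by
    have h1 := N.card_mul_index
    have h2 := O.card_mul_index
    rw [Subgroup.index_eq_card] at h1 h2
    rw [hQ, hcardN] at h1
    have hpos : 0 < Nat.card O := Nat.card_pos
    apply Nat.eq_of_mul_eq_mul_left hpos
    rw [h2, ← h1]
    ring
  have hnsolv : ¬ Group.IsSolvable (G ⧸ O) := by
    intro h
    haveI := h
    have := Cfsg.Agent.Lib.Zassen.Unique.perf_solv hGbarperf (MonoidHom.id (G ⧸ O)) Function.surjective_id
    exact hZ1 (Subsingleton.elim _ _)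
  have hinv1 : ∀ P : Sylow 2 (G ⧸ O), ∀ p ∈ (P : Subgroup (G ⧸ O)), p ^ 2 = 1 → p = 1 ∨ p = Z := by
    intro P p hp h1
    by_cases h2 : r p = 1
    · exact hker p h2
    · exfalso
      apply hε
      rw [← hinvol p ub h2 (hsq P p hp) hub1 hub2, h1]
  have hfh : (120 : ℕ).factorization 2 = 3 := by
    have : (120 : ℕ) = 2 ^ 3 * 15 := by norm_num
    rw [this, Nat.factorization_mul (by norm_num) (by norm_num),
      Nat.Prime.factorization_pow Nat.prime_two]
    simp [Nat.factorization_eq_zero_of_not_dvd (show ¬ 2 ∣ 15 by norm_num)]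
  have hSL : Nonempty (G ⧸ O ≃* Matrix.SpecialLinearGroup (Fin 2) (ZMod 5)) := by
    refine Cfsg.Agent.S3378.result.1 (G ⧸ O) h120 hnsolv ?_
    intro P
    have hPcard : Nat.card (P : Subgroup (G ⧸ O)) = 8 := by
      have := P.card_eq_multiplicity
      rw [h120, hfh] at this
      rw [this]
      norm_num
    have hgen : ∀ H : Subgroup (P : Subgroup (G ⧸ O)), Nat.card H = 2 →
        ∃ hZP : Z ∈ (P : Subgroup (G ⧸ O)), H = Subgroup.zpowers (⟨Z, hZP⟩ : (P : Subgroup (G ⧸ O))) := by
      intro H hH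
      obtain ⟨x, hx⟩ := exists_prime_orderOf_dvd_card' (G := H) 2 (by rw [hH])
      have hx2 : ((x : (P : Subgroup (G ⧸ O))) : G ⧸ O) ^ 2 = 1 := by
        have := pow_orderOf_eq_one x
        rw [hx] at this
        have h1 := congrArg (fun y : H => ((y : (P : Subgroup (G ⧸ O))) : G ⧸ O)) this
        simpa using h1
      have hx1 : ((x : (P : Subgroup (G ⧸ O))) : G ⧸ O) ≠ 1 := by
        intro h
        have : x = 1 := Subtype.ext (Subtype.ext h)
        rw [this, orderOf_one] at hx
        omega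
      have hxZ := (hinv1 P _ x.1.2 hx2).resolve_left hx1
      have hZP : Z ∈ (P : Subgroup (G ⧸ O)) := hxZ ▸ x.1.2
      refine ⟨hZP, ?_⟩
      symm
      apply Subgroup.eq_of_le_of_card_ge
      · rw [Subgroup.zpowers_le]
        have : (⟨Z, hZP⟩ : (P : Subgroup (G ⧸ O))) = x.1 := Subtype.ext hxZ.symm
        rw [this]
        exact x.2
      · rw [hH, Nat.card_zpowers]
        have h3 : orderOf (⟨Z, hZP⟩ : (P : Subgroup (G ⧸ O))) = 2 := by
          apply orderOf_eq_prime
          · exact Subtype.ext hZZ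
          · intro h
            exact hZ1 (congrArg Subtype.val h)
        rw [h3]
    have huniq : ∀ H K : Subgroup (P : Subgroup (G ⧸ O)), Nat.card H = 2 → Nat.card K = 2 → H = K := by
      intro H K hH hK
      obtain ⟨_, e1⟩ := hgen H hH
      obtain ⟨_, e2⟩ := hgen K hK
      rw [e1, e2]
    rcases Cfsg.Agent.S0016.result 2 P.isPGroup' huniq with hcyc | ⟨-, n, ⟨e⟩⟩
    · exfalso
      haveI := hcyc
      letI := IsCyclic.commGroup (α := (P : Subgroup (G ⧸ O)))
      have hcomm : ∀ x ∈ (P : Subgroup (G ⧸ O)), ∀ y ∈ (P : Subgroup (G ⧸ O)), x * y = y * x := by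
        intro x hx y hy
        have := mul_comm (⟨x, hx⟩ : (P : Subgroup (G ⧸ O))) ⟨y, hy⟩
        exact congrArg Subtype.val this
      obtain ⟨x, hx⟩ := exists_prime_orderOf_dvd_card' (G := (P : Subgroup (G ⧸ O))) 2
        (by rw [hPcard]; norm_num)
      have hx2 : (x : G ⧸ O) ^ 2 = 1 := by
        have := pow_orderOf_eq_one x
        rw [hx] at this
        simpa using congrArg Subtype.val this
      have hx1 : (x : G ⧸ O) ≠ 1 := by
        intro h
        have : x = 1 := Subtype.ext h
        rw [this, orderOf_one] at hx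
        omega
      have hxZ := (hinv1 P _ x.2 hx2).resolve_left hx1
      exact Cfsg.Agent.Lib.Zassen.Unique.false_of_central hGbarperf P hcomm (hxZ ▸ x.2) hZc hZ1
    · have h1 : Nat.card (QuaternionGroup (2 ^ n)) = 8 := by
        rw [← Nat.card_congr e.toEquiv]
        exact hPcard
      rw [Nat.card_eq_fintype_card, QuaternionGroup.card] at h1
      have hn : n = 1 := by
        have : 2 ^ n = 2 ^ 1 := by omega
        exact Nat.pow_right_injective (le_refl 2) this
      subst hn
      exact ⟨e⟩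
  refine ⟨⟨⟨fun a b => Subtype.ext ?_⟩⟩, hSL, hord⟩
  refine Cfsg.Agent.Lib.ChiFour.OddPart.odd_abelian O hOodd u hperf hcl h4 ?_ ?_ a.2 b.2
  · intro g
    apply hπ1'
    rw [map_commutatorElement, commutatorElement_def, map_mul]
    have e : π u * π u = Z := by
      rw [← hεZ, sq]
    rw [e, hZc]
    group
  · intro y hy h
    exact hST y (hcen y h) hy

/-- **The group theoretic part.** -/
theorem main_group (u : G) (hperf : commutator G = ⊤)
    (hcl : ∀ L : Subgroup G, L.Normal → u ∈ L → L = ⊤) (N : Subgroup G) [hN : N.Normal]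
    (hQ : Nat.card (G ⧸ N) = 60) (huN : u ∉ N) (huu : u * u ∈ N)
    (hC : Nat.card (centralizer ({u} : Set G)) = 4) :
    IsMulCommutative (oddCore G) ∧
      ((Nonempty (G ⧸ oddCore G ≃* Matrix.ProjectiveSpecialLinearGroup (Fin 2) (ZMod 5)) ∧
          orderOf u = 2) ∨
        (Nonempty (G ⧸ oddCore G ≃* Matrix.SpecialLinearGroup (Fin 2) (ZMod 5)) ∧ orderOf u = 4)) := by
  classical
  haveI : Fact (Nat.Prime 2) := ⟨Nat.prime_two⟩
  let q := QuotientGroup.mk' N
  have hq : Function.Surjective q := QuotientGroup.mk'_surjective N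
  have hQns : ¬ Group.IsSolvable (G ⧸ N) := by
    intro h
    haveI := h
    have h1 := Cfsg.Agent.Lib.Zassen.Unique.perf_solv hperf q hq
    have h2 := Nat.card_of_subsingleton (1 : G ⧸ N)
    omega
  haveI hQs : IsSimpleGroup (G ⧸ N) :=
    Cfsg.Agent.Lib.PermRec.DegreeA5.isSimple_of_not_solvable _ hQ hQns
  let C := centralizer ({u} : Set G)
  have huC : u ∈ C := Subgroup.mem_centralizer_singleton_iff.mpr rfl
  have hCmem : ∀ x, x * u = u * x → x ∈ C := fun x h =>
    Subgroup.mem_centralizer_singleton_iff.mpr h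
  have hC2 : IsPGroup 2 C := IsPGroup.of_card (n := 2) (by rw [hC]; norm_num)
  obtain ⟨S, hCS⟩ := hC2.exists_le_sylow
  obtain ⟨hcardS, hcyc⟩ := inf_facts N hQ S C hCS hC u huC hCmem
  obtain ⟨hON, hodd, hdec, hcardN⟩ := odd_package N hQ S hcyc
  have hOodd : ¬ 2 ∣ Nat.card (oddCore G) := oddCore_odd
  have hST : ∀ x ∈ (S : Subgroup G), x ∈ oddCore G → x = 1 := by
    intro x hxS hxO
    have h3 := odd_order_of_mem hOodd hxO
    obtain ⟨k, hk⟩ := IsPGroup.iff_orderOf.mp S.isPGroup' ⟨x, hxS⟩
    rw [Subgroup.orderOf_mk] at hk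
    rw [hk] at h3
    rcases Nat.eq_zero_or_pos k with h0 | h0
    · rw [h0, pow_zero] at hk
      exact orderOf_eq_one_iff.mp hk
    · exfalso
      have : Even (2 ^ k) := (Nat.even_pow' h0.ne').mpr even_two
      exact (Nat.not_even_iff_odd.mpr h3) this
  let π := QuotientGroup.mk' (oddCore G)
  have hπ : Function.Surjective π := QuotientGroup.mk'_surjective _
  have hGbarperf : commutator (G ⧸ oddCore G) = ⊤ :=
    Cfsg.Agent.Lib.Zassen.Unique.perf_commutator_map hperf π hπ
  have hNbar : IsCyclic (N.map π) := by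
    let g : N.subgroupOf (S : Subgroup G) →* N.map π :=
      { toFun := fun x => ⟨π x.1.1, Subgroup.mem_map_of_mem π x.2⟩
        map_one' := rfl
        map_mul' := fun _ _ => rfl }
    refine isCyclic_of_surjective g ?_
    rintro ⟨_, x, hx, rfl⟩
    obtain ⟨o, ho, t, ht, rfl⟩ := hdec x hx
    refine ⟨⟨⟨t, ht.1⟩, ht.2⟩, Subtype.ext ?_⟩
    show π t = π (o * t)
    rw [map_mul]
    have h1 : π o = 1 := by
      rw [QuotientGroup.mk'_apply, QuotientGroup.eq_one_iff]
      exact ho
    rw [h1, one_mul]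
  haveI hNn : (N.map π).Normal := Subgroup.Normal.map inferInstance π hπ
  have hcentral : ∀ (g : G ⧸ oddCore G), ∀ x ∈ N, g * π x = π x * g := by
    intro g x hx
    exact central_of_cyclic_normal hGbarperf (N.map π) hNbar g (Subgroup.mem_map_of_mem π hx)
  let T : Subgroup G := (S : Subgroup G) ⊓ N
  have huS : u ∈ (S : Subgroup G) := hCS huC
  have hTC : T ≤ C := by
    intro t ht
    apply hCmem
    have h1 := hcentral (π u) t ht.2
    have h2 : π (t * u * t⁻¹ * u⁻¹) = 1 := by
      simp only [map_mul, map_inv]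
      rw [← h1]
      group
    have h3 : t * u * t⁻¹ * u⁻¹ ∈ oddCore G := by
      rwa [QuotientGroup.mk'_apply, QuotientGroup.eq_one_iff] at h2
    have h4 : t * u * t⁻¹ * u⁻¹ ∈ (S : Subgroup G) :=
      mul_mem (mul_mem (mul_mem ht.1 huS) (inv_mem ht.1)) (inv_mem huS)
    have h5 := hST _ h4 h3
    have h6 : t * u * t⁻¹ = u := by
      rwa [mul_inv_eq_one] at h5
    calc t * u = (t * u * t⁻¹) * t := by group
      _ = u * t := by rw [h6]
  have hTcard : Nat.card T ∣ 2 ^ 2 := by
    have := Subgroup.card_dvd_of_le hTC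
    rw [hC] at this
    exact this
  obtain ⟨j, hj2, hj⟩ := (Nat.dvd_prime_pow Nat.prime_two).mp hTcard
  have hTne : j ≠ 2 := by
    rintro rfl
    have h1 : T = C := by
      apply Subgroup.eq_of_le_of_card_ge hTC
      rw [hC, hj]
      norm_num
    have h2 : u ∈ T := h1 ▸ huC
    exact huN h2.2
  have hu1 : u ≠ 1 := by
    rintro rfl
    exact huN (one_mem _)
  have hfixS : ∀ x, x * u = u * x → x ∈ (S : Subgroup G) := fun x h => hCS (hCmem x h)
  interval_cases j
  · -- `S ∩ N = 1`
    have hT1 : T = ⊥ := Subgroup.eq_bot_of_card_eq T (by rw [hj]; norm_num)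
    have huu1 : u * u = 1 := by
      have h1 : u * u ∈ T := ⟨mul_mem huS huS, huu⟩
      rw [hT1] at h1
      exact h1
    have hO : oddCore G = N := by
      apply Subgroup.eq_of_le_of_card_ge hON
      rw [hcardN]
      have : Nat.card ((S : Subgroup G) ⊓ N : Subgroup G) = 1 := by
        rw [show (S : Subgroup G) ⊓ N = T from rfl, hj]
        norm_num
      rw [this, mul_one]
    obtain ⟨h1, h2, h3⟩ := case_one (oddCore G) N (S : Subgroup G) u hO hQ hST hfixS huu1 hu1
    exact ⟨h1, Or.inl ⟨h2, h3⟩⟩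
  · -- `|S ∩ N| = 2`
    have hTc : Nat.card T = 2 := by
      rw [hj]
      norm_num
    obtain ⟨t₀', ht₀', huniq⟩ := (Nat.card_eq_two_iff' (1 : T)).mp hTc
    have ht₀1 : (t₀' : G) ≠ 1 := fun h => ht₀' (Subtype.ext h)
    have huniqT : ∀ t ∈ T, t = 1 ∨ t = t₀' := by
      intro t ht
      by_cases h1 : t = 1
      · exact Or.inl h1
      · right
        have := huniq ⟨t, ht⟩ (fun h => h1 (congrArg Subtype.val h))
        exact congrArg Subtype.val this
    have ht₀2 : (t₀' : G) * t₀' = 1 := by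
      rcases huniqT _ (T.mul_mem t₀'.2 t₀'.2) with h1 | h1
      · exact h1
      · exfalso
        apply ht₀1
        have : (t₀' : G) * t₀' = t₀' * 1 := by rw [h1, mul_one]
        exact mul_left_cancel this
    have hcN : Nat.card N = Nat.card (oddCore G) * 2 := by
      rw [hcardN]
      congr 1
    have hu4 : orderOf u ∣ 4 := by
      have := Subgroup.orderOf_dvd_natCard C huC
      rwa [hC] at this
    obtain ⟨h1, h2, h3⟩ := case_two (oddCore G) N S u hperf hcl hOodd hON hQ huN huu hu4 hST hfixS hcN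
      (t₀ := t₀') t₀'.2.1 ht₀1 (by
        intro x hx
        obtain ⟨o, ho, t, ht, rfl⟩ := hdec x hx
        refine ⟨o, ho, ?_⟩
        rcases huniqT t ht with h4 | h4
        · right
          rw [h4, mul_one]
        · left
          rw [h4]) (by
        intro g
        exact hcentral g _ t₀'.2.2) t₀'.2.2 ht₀2
    exact ⟨h1, Or.inr ⟨h2, h3⟩⟩
  · exact absurd rfl hTne

end Cfsg.Agent.Lib.ChiFour.Group
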