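import Mathlib
import Cfsg.Agent.Lib.ChiFour.Basic
import Cfsg.Agent.Lib.Char.PrimTwo
import Cfsg.Agent.Lib.Char.Burnside

/-!
# Perfect groups with a faithful real irreducible character of degree three have order 60
-/

set_option autoImplicit false
set_option linter.all false

namespace Cfsg.Agent.Lib.ChiFour.SO3

open Cfsg Module MulAction Matrix
open Cfsg.Agent.Lib.Char.FrobSchur
open Cfsg.Agent.Lib.ChiFour.Basic
open scoped ComplexConjugate

universe u'

variable {Q : Type u'} [Group Q]

/-- The bilinear form of a matrix. -/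
noncomputable def bf (M : Mat 3) (v w : Fin 3 → ℂ) : ℂ := v ⬝ᵥ (M *ᵥ w)

theorem rep_eq (ρ : Representation ℂ Q (Fin 3 → ℂ)) (g : Q) (v : Fin 3 → ℂ) :
    ρ g v = A ρ g *ᵥ v := by
  simp [A, LinearMap.toMatrix'_mulVec]

theorem bf_inv {ρ : Representation ℂ Q (Fin 3 → ℂ)} {M : Mat 3} (hM : M ∈ invForms ρ) (g : Q)
    (v w : Fin 3 → ℂ) : bf M (ρ g v) (ρ g w) = bf M v w := by
  unfold bf
  rw [rep_eq, rep_eq, ← Matrix.vecMul_transpose, ← Matrix.dotProduct_mulVec, Matrix.mulVec_mulVec,
    Matrix.mulVec_mulVec, mem_invForms.mp hM g]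

theorem bf_smul_left (M : Mat 3) (c : ℂ) (v w : Fin 3 → ℂ) : bf M (c • v) w = c * bf M v w := by
  simp [bf, smul_dotProduct]

theorem bf_smul_right (M : Mat 3) (c : ℂ) (v w : Fin 3 → ℂ) : bf M v (c • w) = c * bf M v w := by
  simp [bf, Matrix.mulVec_smul, dotProduct_smul]

theorem bf_add_right (M : Mat 3) (v w w' : Fin 3 → ℂ) : bf M v (w + w') = bf M v w + bf M v w' := by
  simp [bf, Matrix.mulVec_add, dotProduct_add]

theorem eq_zero_of_bf {M : Mat 3} (hM : IsUnit M) {v : Fin 3 → ℂ} (h : ∀ w, bf M v w = 0) : v = 0 := by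
  have h1 : v ᵥ* M = 0 := by
    funext i
    have := h (Pi.single i 1)
    simp only [bf, Matrix.dotProduct_mulVec, dotProduct_single, mul_one] at this
    simpa using this
  have h2 : Function.Injective (fun v : Fin 3 → ℂ => v ᵥ* M) := by
    have := Matrix.vecMul_injective_of_isUnit hM
    exact this
  apply h2
  simp only
  rw [h1]
  simp

variable [Finite Q]

/-- Every element has eigenvalue one. -/
theorem exists_eig_fix (hperf : commutator Q = ⊤) (ρ : Representation ℂ Q (Fin 3 → ℂ))
    (hreal : ∀ x, (ρ.character x).im = 0) (x : Q) :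
    ∃ (b : Basis (Fin 3) ℂ (Fin 3 → ℂ)) (μ : Fin 3 → ℂ), (∀ i, ρ x (b i) = μ i • b i) ∧
      μ 0 = 1 ∧ μ 1 * μ 2 = 1 := by
  classical
  obtain ⟨b, μ, h1, h2, h3⟩ := exists_eig ρ x
  rw [det_eq_one hperf, Fin.prod_univ_three] at h3
  have h4 := Cfsg.Agent.Lib.Char.Eigen.character_eq_sum_of_eigenbasis ρ b μ h1
  have hnorm : ∀ i, conj (μ i) = (μ i)⁻¹ := by
    intro i
    rw [Complex.inv_eq_conj]
    exact Cfsg.Agent.Lib.Char.Eigen.norm_eq_one_of_pow_eq_one (orderOf_pos x).ne' (h2 i)
  have hr : conj (ρ.character x) = ρ.character x := Complex.conj_eq_iff_im.mpr (hreal x)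
  rw [h4, map_sum, Fin.sum_univ_three, Fin.sum_univ_three, hnorm, hnorm, hnorm] at hr
  have h00 : μ 0 ≠ 0 := by
    intro h0
    rw [h0] at h3
    simp at h3
  have h01 : μ 1 ≠ 0 := by
    intro h0
    rw [h0] at h3
    simp at h3
  have h02 : μ 2 ≠ 0 := by
    intro h0
    rw [h0] at h3
    simp at h3
  have e0 : (μ 0)⁻¹ = μ 1 * μ 2 := by
    field_simp
    linear_combination h3
  have e1 : (μ 1)⁻¹ = μ 0 * μ 2 := by
    field_simp
    linear_combination h3
  have e2 : (μ 2)⁻¹ = μ 0 * μ 1 := by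
    field_simp
    linear_combination h3
  rw [e0, e1, e2] at hr
  have hzero : (μ 0 - 1) * (μ 1 - 1) * (μ 2 - 1) = 0 := by
    linear_combination -h3 - hr
  have hprop : ∀ σ : Equiv.Perm (Fin 3), ∀ i, ρ x ((b.reindex σ) i) = (μ ∘ σ.symm) i • (b.reindex σ) i := by
    intro σ i
    simp [Basis.reindex_apply, h1]
  rcases mul_eq_zero.mp hzero with h5 | h5
  · rcases mul_eq_zero.mp h5 with h6 | h6
    · refine ⟨b, μ, h1, by linear_combination h6, ?_⟩
      have h7 : μ 0 = 1 := by linear_combination h6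
      rw [h7] at h3
      linear_combination -h3
    · refine ⟨b.reindex (Equiv.swap 0 1), μ ∘ (Equiv.swap 0 1).symm, hprop _, ?_, ?_⟩
      · simp only [Function.comp, Equiv.symm_swap, Equiv.swap_apply_left]
        linear_combination h6
      · simp only [Function.comp, Equiv.symm_swap, Equiv.swap_apply_right]
        have h8 : (Equiv.swap (0 : Fin 3) 1) 2 = 2 := by decide
        rw [h8]
        have h7 : μ 1 = 1 := by linear_combination h6
        rw [h7] at h3
        linear_combination -h3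
  · refine ⟨b.reindex (Equiv.swap 0 2), μ ∘ (Equiv.swap 0 2).symm, hprop _, ?_, ?_⟩
    · simp only [Function.comp, Equiv.symm_swap, Equiv.swap_apply_left]
      linear_combination h5
    · simp only [Function.comp, Equiv.symm_swap, Equiv.swap_apply_right]
      have h8 : (Equiv.swap (0 : Fin 3) 2) 1 = 1 := by decide
      rw [h8]
      have h7 : μ 2 = 1 := by linear_combination h5
      rw [h7] at h3
      linear_combination -h3

/-- The fixed space of a nontrivial element. -/
theorem fixed_line (hperf : commutator Q = ⊤) (ρ : Representation ℂ Q (Fin 3 → ℂ))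
    (hreal : ∀ x, (ρ.character x).im = 0) (hinj : ∀ x, ρ x = 1 → x = 1)
    {M : Mat 3} (hM : M ∈ invForms ρ) (hU : IsUnit M) {x : Q} (hx : x ≠ 1) :
    ∃ v : Fin 3 → ℂ, ρ x v = v ∧ bf M v v ≠ 0 ∧ ∀ w, ρ x w = w → ∃ c : ℂ, w = c • v := by
  classical
  obtain ⟨b, μ, h1, h2, h3⟩ := exists_eig_fix hperf ρ hreal x
  have hμ1 : μ 1 ≠ 1 := by
    intro h
    rw [h, one_mul] at h3
    apply hx
    apply hinj
    apply b.ext
    intro i
    rw [h1]
    fin_cases i
    · simp [h2]
    · simp [h]
    · simp [h3]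
  have hμ2 : μ 2 ≠ 1 := by
    intro h
    apply hμ1
    rw [h, mul_one] at h3
    exact h3
  have hb0 : ρ x (b 0) = b 0 := by rw [h1, h2, one_smul]
  have horth : ∀ j : Fin 3, μ j ≠ 1 → bf M (b 0) (b j) = 0 := by
    intro j hj
    have h4 := bf_inv hM x (b 0) (b j)
    rw [hb0, h1, bf_smul_right] at h4
    have h5 : (μ j - 1) * bf M (b 0) (b j) = 0 := by linear_combination h4
    rcases mul_eq_zero.mp h5 with h6 | h6
    · exact absurd (by linear_combination h6) hj
    · exact h6
  refine ⟨b 0, hb0, ?_, ?_⟩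
  · intro h0
    apply b.ne_zero 0
    apply eq_zero_of_bf hU
    intro w
    rw [← b.sum_repr w, Fin.sum_univ_three, bf_add_right, bf_add_right, bf_smul_right, bf_smul_right,
      bf_smul_right, h0, horth 1 hμ1, horth 2 hμ2]
    simp
  · intro w hw
    refine ⟨b.repr w 0, ?_⟩
    have hsum := b.sum_repr w
    rw [Fin.sum_univ_three] at hsum
    have h5 : ρ x w = b.repr w 0 • b 0 + (b.repr w 1 * μ 1) • b 1 + (b.repr w 2 * μ 2) • b 2 := by
      conv_lhs => rw [← hsum]
      rw [map_add, map_add, map_smul, map_smul, map_smul, h1, h1, h1, h2, one_smul, smul_smul,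
        smul_smul]
    have h6 := congrArg (fun v => b.repr v 1) (h5.symm.trans hw)
    have h7 := congrArg (fun v => b.repr v 2) (h5.symm.trans hw)
    simp at h6 h7
    have h8 : b.repr w 1 = 0 := by
      have h10 : b.repr w 1 * (μ 1 - 1) = 0 := by linear_combination h6
      rcases mul_eq_zero.mp h10 with h11 | h11
      · exact h11
      · exact absurd (by linear_combination h11) hμ1
    have h9 : b.repr w 2 = 0 := by
      have h10 : b.repr w 2 * (μ 2 - 1) = 0 := by linear_combination h7
      rcases mul_eq_zero.mp h10 with h11 | h11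
      · exact h11
      · exact absurd (by linear_combination h11) hμ2
    rw [h8, h9] at hsum
    simpa using hsum.symm

/-- The "sphere". -/
def Omega (ρ : Representation ℂ Q (Fin 3 → ℂ)) (M : Mat 3) : Set (Fin 3 → ℂ) :=
  {w | bf M w w = 1 ∧ ∃ x : Q, x ≠ 1 ∧ ρ x w = w}

theorem rep_inv_apply (ρ : Representation ℂ Q (Fin 3 → ℂ)) (g : Q) (v : Fin 3 → ℂ) :
    ρ g⁻¹ (ρ g v) = v := by
  rw [← Module.End.mul_apply, ← map_mul]
  simp

/-- The action on the "sphere". -/
abbrev omegaAct {ρ : Representation ℂ Q (Fin 3 → ℂ)} {M : Mat 3} (hM : M ∈ invForms ρ) :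
    MulAction Q (Omega ρ M) where
  smul g w := ⟨ρ g w.1, by
    obtain ⟨h1, x, hx, h2⟩ := w.2
    refine ⟨by rw [bf_inv hM]; exact h1, g * x * g⁻¹, ?_, ?_⟩
    · intro h
      apply hx
      have : g⁻¹ * (g * x * g⁻¹) * g = x := by group
      rw [← this, h]
      group
    · rw [map_mul, map_mul, Module.End.mul_apply, Module.End.mul_apply, rep_inv_apply, h2]⟩
  one_smul w := Subtype.ext (by
    show ρ 1 w.1 = w.1
    simp)
  mul_smul g h w := Subtype.ext (by
    show ρ (g * h) w.1 = ρ g (ρ h w.1)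
    rw [map_mul, Module.End.mul_apply])

theorem ncard_fixed (hperf : commutator Q = ⊤) (ρ : Representation ℂ Q (Fin 3 → ℂ))
    (hreal : ∀ x, (ρ.character x).im = 0) (hinj : ∀ x, ρ x = 1 → x = 1)
    {M : Mat 3} (hM : M ∈ invForms ρ) (hU : IsUnit M) {x : Q} (hx : x ≠ 1) :
    Set.ncard {w : Omega ρ M | ρ x w.1 = w.1} = 2 := by
  classical
  obtain ⟨v, h1, h2, h3⟩ := fixed_line hperf ρ hreal hinj hM hU hx
  obtain ⟨s, hs⟩ : ∃ s : ℂ, s ^ 2 = (bf M v v)⁻¹ := IsAlgClosed.exists_pow_nat_eq _ (by norm_num)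
  have hs0 : s ≠ 0 := by
    rintro rfl
    have : (bf M v v)⁻¹ ≠ 0 := inv_ne_zero h2
    apply this
    rw [← hs]
    norm_num
  have hq : ∀ c : ℂ, bf M (c • v) (c • v) = c ^ 2 * bf M v v := by
    intro c
    rw [bf_smul_left, bf_smul_right]
    ring
  have hm1 : s • v ∈ Omega ρ M := by
    refine ⟨by rw [hq, hs, inv_mul_cancel₀ h2], x, hx, by rw [map_smul, h1]⟩
  have hm2 : (-s) • v ∈ Omega ρ M := by
    refine ⟨by rw [hq, neg_sq, hs, inv_mul_cancel₀ h2], x, hx, by rw [map_smul, h1]⟩
  have hset : {w : Omega ρ M | ρ x w.1 = w.1} = {⟨_, hm1⟩, ⟨_, hm2⟩} := by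
    ext w
    simp only [Set.mem_setOf_eq, Set.mem_insert_iff, Set.mem_singleton_iff]
    constructor
    · intro hw
      obtain ⟨c, hc⟩ := h3 _ hw
      have h4 := w.2.1
      rw [hc, hq] at h4
      have h5 : c ^ 2 = s ^ 2 := by
        rw [hs]
        field_simp
        exact h4
      have h6 : (c - s) * (c + s) = 0 := by linear_combination h5
      rcases mul_eq_zero.mp h6 with h7 | h7
      · left
        apply Subtype.ext
        show w.1 = s • v
        rw [hc, show c = s by linear_combination h7]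
      · right
        apply Subtype.ext
        show w.1 = (-s) • v
        rw [hc, show c = -s by linear_combination h7]
    · rintro (h | h)
      · rw [h]
        show ρ x (s • v) = s • v
        rw [map_smul, h1]
      · rw [h]
        show ρ x ((-s) • v) = (-s) • v
        rw [map_smul, h1]
  rw [hset, Set.ncard_pair]
  intro h
  have h4 : s • v = (-s) • v := congrArg Subtype.val h
  have hv0 : v ≠ 0 := by
    rintro rfl
    apply h2
    simp [bf]
  have h5 : (s + s) • v = 0 := by
    rw [add_smul]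
    nth_rewrite 1 [h4]
    simp
  rcases smul_eq_zero.mp h5 with h6 | h6
  · apply hs0
    have : (2 : ℂ) * s = 0 := by linear_combination h6
    simpa using this
  · exact hv0 h6

theorem finite_omega (hperf : commutator Q = ⊤) (ρ : Representation ℂ Q (Fin 3 → ℂ))
    (hreal : ∀ x, (ρ.character x).im = 0) (hinj : ∀ x, ρ x = 1 → x = 1)
    {M : Mat 3} (hM : M ∈ invForms ρ) (hU : IsUnit M) : Finite (Omega ρ M) := by
  classical
  have h : (Set.univ : Set (Omega ρ M)) ⊆
      ⋃ g : {g : Q // g ≠ 1}, {w : Omega ρ M | ρ g.1 w.1 = w.1} := by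
    intro w _
    obtain ⟨_, g, hg, hw⟩ := w.2
    exact Set.mem_iUnion.mpr ⟨⟨g, hg⟩, hw⟩
  have hf : (⋃ g : {g : Q // g ≠ 1}, {w : Omega ρ M | ρ g.1 w.1 = w.1}).Finite := by
    apply Set.finite_iUnion
    intro g
    apply Set.finite_of_ncard_ne_zero
    rw [ncard_fixed hperf ρ hreal hinj hM hU g.2]
    norm_num
  exact Set.finite_univ_iff.mp (hf.subset h)

/-- **The main theorem.** -/
theorem card_eq_sixty (hperf : commutator Q = ⊤) (ρ : Representation ℂ Q (Fin 3 → ℂ))
    [hρ : ρ.IsIrreducible] (hreal : ∀ x, (ρ.character x).im = 0) (hinj : ∀ x, ρ x = 1 → x = 1) :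
    Nat.card Q = 60 := by
  classical
  letI : Fintype Q := Fintype.ofFinite Q
  obtain ⟨M, hM, hM0⟩ := (indicator_real ρ hρ hreal).2.1
  have hU := isUnit_of_mem_invForms ρ hρ hM hM0
  haveI hfin := finite_omega hperf ρ hreal hinj hM hU
  letI : Fintype (Omega ρ M) := Fintype.ofFinite _
  letI act : MulAction Q (Omega ρ M) := omegaAct hM
  set n := Nat.card Q with hn
  have hf3 : finrank ℂ (Fin 3 → ℂ) = 3 := by simp
  have hsolvfalse : ¬ Group.IsSolvable Q := by
    intro hs
    haveI := hs
    have h1 := Cfsg.Agent.Lib.Zassen.Unique.perf_solv hperf (MonoidHom.id Q) Function.surjective_id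
    obtain ⟨g, hg⟩ := Cfsg.Agent.Lib.Char.Zeros.exists_character_eq_zero ρ (by rw [hf3]; norm_num)
    have h2 : g = 1 := Subsingleton.elim _ _
    rw [h2] at hg
    have h3 : ρ.character 1 = 3 := by
      rw [Representation.character, map_one, LinearMap.trace_one, hf3]
      norm_num
    rw [h3] at hg
    norm_num at hg
  have hn2 : 2 ≤ n := by
    by_contra h
    have h0 : 0 < n := Nat.card_pos
    have h1 : n = 1 := by omega
    apply hsolvfalse
    exact Cfsg.Agent.Lib.Char.Burnside.isSolvable_of_card_eq 2 3 0 0 Nat.prime_two Nat.prime_three (by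
      rw [← hn, h1]; norm_num)
  have hsmul : ∀ (g : Q) (w : Omega ρ M), ((g • w : Omega ρ M) : Fin 3 → ℂ) = ρ g w.1 := fun _ _ => rfl
  -- the stabilizers
  have hst : ∀ w : Omega ρ M, 3 ≤ (stabilizer Q w).index ∧ (stabilizer Q w).index ∣ n ∧
      2 * (stabilizer Q w).index ≤ n := by
    intro w
    set K := stabilizer Q w with hKdef
    have hK0 : K.index ≠ 0 := Subgroup.index_ne_zero_of_finite
    have hK1 : K.index ≠ 1 := by
      intro h
      have h2 : K = ⊤ := Subgroup.index_eq_one.mp h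
      obtain ⟨h3, x, hx, -⟩ := w.2
      have h4 : w.1 = 0 := by
        apply Cfsg.Agent.Lib.Char.Zeros.eq_zero_of_forall_fixed ρ (⊤ : Subgroup Q)
        · exact ⟨x, trivial, fun h5 => hx (hinj x h5)⟩
        · intro g _
          have h5 : g ∈ K := by rw [h2]; trivial
          rw [hKdef, mem_stabilizer_iff] at h5
          exact congrArg Subtype.val h5
      rw [h4] at h3
      simp [bf] at h3
    have hK2 : K.index ≠ 2 := by
      intro h
      haveI hKn : K.Normal := Subgroup.normal_of_index_eq_two h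
      have h1 : Nat.card (Q ⧸ K) = 2 := by rw [← Subgroup.index_eq_card, h]
      haveI : Group.IsSolvable (Q ⧸ K) :=
        Cfsg.Agent.Lib.Char.Burnside.isSolvable_of_card_eq 2 3 1 0 Nat.prime_two Nat.prime_three (by
          rw [h1]; norm_num)
      have h2 := Cfsg.Agent.Lib.Zassen.Unique.perf_solv hperf (QuotientGroup.mk' K)
        (QuotientGroup.mk'_surjective K)
      have h3 := Nat.card_of_subsingleton (1 : Q ⧸ K)
      omega
    have hrel := Subgroup.card_mul_index K
    refine ⟨by omega, ⟨Nat.card K, by rw [hn, ← hrel, mul_comm]⟩, ?_⟩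
    have hc2 : 2 ≤ Nat.card K := by
      obtain ⟨-, x, hx, hw⟩ := w.2
      have hxK : x ∈ K := by
        rw [hKdef, mem_stabilizer_iff]
        exact Subtype.ext hw
      have h1 : (⟨x, hxK⟩ : K) ≠ 1 := fun h => hx (congrArg Subtype.val h)
      haveI : Nontrivial K := ⟨⟨_, _, h1⟩⟩
      exact Finite.one_lt_card
    calc 2 * K.index ≤ Nat.card K * K.index := Nat.mul_le_mul_right _ hc2
      _ = n := hrel
  -- Burnside
  have hb := sum_card_fixedBy_eq_card_orbits_mul_card_group Q (Omega ρ M)
  have hfix : ∀ g : Q, Fintype.card (fixedBy (Omega ρ M) g) =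
      if g = 1 then Fintype.card (Omega ρ M) else 2 := by
    intro g
    split_ifs with hg
    · apply Fintype.card_congr
      refine (Equiv.subtypeUnivEquiv ?_)
      intro L
      rw [mem_fixedBy, hg, one_smul]
    · rw [← Nat.card_eq_fintype_card, ← ncard_fixed hperf ρ hreal hinj hM hU hg]
      rw [← Nat.card_coe_set_eq]
      apply Nat.card_congr
      refine Equiv.subtypeEquivRight fun L => ?_
      rw [mem_fixedBy]
      constructor
      · intro h
        exact congrArg Subtype.val h
      · intro h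
        exact Subtype.ext h
  simp only [hfix] at hb
  rw [Finset.sum_ite] at hb
  simp only [Finset.sum_const, smul_eq_mul] at hb
  have hc1 : (Finset.univ.filter (fun g : Q => g = 1)).card = 1 := by
    rw [Finset.filter_eq' Finset.univ (1 : Q)]
    simp
  have hc2 := Finset.card_filter_add_card_filter_not (s := (Finset.univ : Finset Q))
    (fun g : Q => g = 1)
  rw [hc1] at hb hc2
  rw [Finset.card_univ, ← Nat.card_eq_fintype_card] at hc2
  have hsumX : Fintype.card (Omega ρ M) = ∑ ω : orbitRel.Quotient Q (Omega ρ M),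
      (stabilizer Q (ω.out : Omega ρ M)).index := by
    rw [card_eq_sum_card_group_div_card_stabilizer Q (Omega ρ M)]
    refine Finset.sum_congr rfl fun ω _ => ?_
    have h1 := Subgroup.card_mul_index (stabilizer Q (ω.out : Omega ρ M))
    rw [Nat.card_eq_fintype_card, Nat.card_eq_fintype_card] at h1
    exact Nat.div_eq_of_eq_mul_right Fintype.card_pos h1.symm
  have hfinal : ∑ ω : orbitRel.Quotient Q (Omega ρ M), (stabilizer Q (ω.out : Omega ρ M)).index
      + 2 * (n - 1) = Fintype.card (orbitRel.Quotient Q (Omega ρ M)) * n := by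
    rw [← hsumX]
    rw [Nat.card_eq_fintype_card] at hn
    rw [hn, ← hb]
    have hne : (Finset.univ.filter (fun g : Q => ¬ g = 1)).card = n - 1 := by
      omega
    rw [hne, ← hn]
    ring
  have hnum := Cfsg.Agent.Lib.Char.PrimTwo.numeric _ hn2 (fun ω => (hst _).1) (fun ω => (hst _).2.1)
    (fun ω => (hst _).2.2) hfinal
  rcases hnum with h | h | h
  · exfalso
    apply hsolvfalse
    exact Cfsg.Agent.Lib.Char.Burnside.isSolvable_of_card_eq 2 3 2 1 Nat.prime_two Nat.prime_three (by
      rw [← hn, h]; norm_num)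
  · exfalso
    apply hsolvfalse
    exact Cfsg.Agent.Lib.Char.Burnside.isSolvable_of_card_eq 2 3 3 1 Nat.prime_two Nat.prime_three (by
      rw [← hn, h]; norm_num)
  · exact h

end Cfsg.Agent.Lib.ChiFour.SO3
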