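import Mathlib
import Cfsg.Agent.Lib.ChiFour.Basic

/-!
# Characters with `χ(1) - χ(u) = 4` or `χ(u) = 0`: products of characters of degree three
-/

set_option autoImplicit false
set_option linter.all false

namespace Cfsg.Agent.Lib.ChiFour.Tensor

open Cfsg Module
open Cfsg.Agent.Lib.Char.Basic Cfsg.Agent.Lib.Char.Ortho Cfsg.Agent.Lib.Char.Complete
open Cfsg.Agent.Lib.Char.Linear Cfsg.Agent.Lib.Char.Clifford Cfsg.Agent.Lib.Char.Degree
open Cfsg.Agent.Lib.Char.FrobSchur
open Cfsg.Agent.Lib.ChiFour.Basic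
open scoped ComplexConjugate

universe u'

/-- The complex conjugate function. -/
noncomputable def cj {G : Type u'} (ξ : G → ℂ) : G → ℂ := fun g => conj (ξ g)

/-- The principal character. -/
noncomputable def one' (G : Type u') : G → ℂ := fun _ => 1

section General

variable {G : Type u'} [Group G] [Fintype G]

theorem cj_irr {ξ : G → ℂ} (hξ : IsIrrCharacter G ξ) : IsIrrCharacter G (cj ξ) := isIrr_conj hξ

theorem cj_char {ξ : G → ℂ} (hξ : IsCharacter G ξ) : IsCharacter G (cj ξ) := by
  have h := isCharacter_inv hξ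
  have h2 : (fun g => ξ g⁻¹) = cj ξ := by
    funext g
    exact char_inv_eq_conj hξ g
  rwa [h2] at h

theorem one_irr : IsIrrCharacter G (one' G) := isIrr_one

theorem one_char : IsCharacter G (one' G) := isCharacter_one

theorem mul_char {a b : G → ℂ} (ha : IsCharacter G a) (hb : IsCharacter G b) :
    IsCharacter G (a * b) := isCharacter_mul ha hb

theorem self_irr {ξ : G → ℂ} (hξ : IsIrrCharacter G ξ) : classInner ξ ξ = 1 :=
  classInner_self_of_isIrr hξ

theorem ne_irr {a b : G → ℂ} (ha : IsIrrCharacter G a) (hb : IsIrrCharacter G b) (h : a ≠ b) :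
    classInner a b = 0 :=
  classInner_eq_zero_of_isIrr_of_ne ha hb h

theorem ne_of_deg {a b : G → ℂ} (h : a 1 ≠ b 1) : a ≠ b := by
  rintro rfl
  exact h rfl

theorem one_self : classInner (one' G) (one' G) = 1 := self_irr one_irr

theorem inner_swap {a b : G → ℂ} (h : classInner a b = 0) : classInner b a = 0 := by
  rw [← classInner_conj, h, map_zero]

theorem i1 (ξ : G → ℂ) : classInner (ξ * ξ) (ξ * ξ) = classInner (ξ * cj ξ) (ξ * cj ξ) := by
  simp only [classInner, Pi.mul_apply, cj, map_mul, Complex.conj_conj]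
  congr 1
  apply Finset.sum_congr rfl
  intro g _
  ring

theorem i2 (ξ : G → ℂ) : classInner (ξ * ξ) (one' G) = classInner ξ (cj ξ) := by
  simp only [classInner, Pi.mul_apply, cj, one', map_one, mul_one, Complex.conj_conj]

theorem i3 (ξ ζ : G → ℂ) : classInner (ξ * cj ζ) (one' G) = classInner ξ ζ := by
  simp only [classInner, Pi.mul_apply, cj, one', map_one, mul_one]

theorem i4 (ξ σ ζ : G → ℂ) : classInner (ξ * σ) ζ = classInner σ (cj ξ * ζ) := by
  simp only [classInner, Pi.mul_apply, cj, map_mul, Complex.conj_conj]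
  congr 1
  apply Finset.sum_congr rfl
  intro g _
  ring

theorem i5 (ξ a b : G → ℂ) :
    classInner (cj ξ * a) (cj ξ * b) = classInner (ξ * cj ξ) (b * cj a) := by
  simp only [classInner, Pi.mul_apply, cj, map_mul, Complex.conj_conj]
  congr 1
  apply Finset.sum_congr rfl
  intro g _
  ring

theorem inner_nat {a b : G → ℂ} (ha : IsCharacter G a) (hb : IsCharacter G b) :
    ∃ n : ℕ, classInner a b = n := exists_nat_classInner ha hb

/-- Two characters with a common constituent are not orthogonal. -/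
theorem inner_ne_zero_of_common {a b θ : G → ℂ} (ha : IsCharacter G a) (hb : IsCharacter G b)
    (hθ : IsIrrCharacter G θ) (h1 : classInner a θ ≠ 0) (h2 : classInner b θ ≠ 0) :
    classInner a b ≠ 0 := by
  have hθc := isCharacter_of_isIrrCharacter hθ
  have hp := isCharacter_sub_of_classInner_ne_zero ha hθ h1
  have hq := isCharacter_sub_of_classInner_ne_zero hb hθ h2
  obtain ⟨n1, hn1⟩ := inner_nat hp hq
  obtain ⟨n2, hn2⟩ := inner_nat hp hθc
  obtain ⟨n3, hn3⟩ := inner_nat hθc hq
  have ea : a = (a - θ) + θ := by simp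
  have eb : b = (b - θ) + θ := by simp
  rw [ea, eb, classInner_add_left, classInner_add_right, classInner_add_right, hn1, hn2, hn3,
    self_irr hθ]
  intro h0
  have : ((n1 + n2 + (n3 + 1) : ℕ) : ℂ) = 0 := by
    push_cast
    linear_combination h0
  have h3 : n1 + n2 + (n3 + 1) = 0 := by exact_mod_cast this
  omega

/-- The Frobenius-Schur inequality. -/
theorem psi_le {ξ : G → ℂ} (hξ : IsIrrCharacter G ξ) :
    (classInner (fun g => ξ (g * g)) (fun g => ξ (g * g))).re ≤
      (classInner (ξ * cj ξ) (ξ * cj ξ)).re := by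
  classical
  haveI : Finite (IrrCharacter G) := finite_irrCharacter
  letI : Fintype (IrrCharacter G) := Fintype.ofFinite _
  have hX : IsCharacter G (ξ * cj ξ) :=
    mul_char (isCharacter_of_isIrrCharacter hξ) (isCharacter_of_isIrrCharacter (cj_irr hξ))
  obtain ⟨m, hm⟩ := exists_nat_combination hX
  have hR : classInner (ξ * cj ξ) (ξ * cj ξ) = ((∑ j, m j ^ 2 : ℕ) : ℂ) := by
    rw [hm]
    exact classInner_self_of_nat_combination m
  have hL : classInner (fun g => ξ (g * g)) (fun g => ξ (g * g)) =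
      ∑ j : IrrCharacter G, (m j : ℂ) * ((Nat.card G : ℂ)⁻¹ * ∑ s : G, (j : G → ℂ) (s * s)) := by
    simp only [classInner]
    have h1 : ∀ g : G, ξ (g * g) * conj (ξ (g * g)) = ∑ j : IrrCharacter G, (m j : ℂ) * (j : G → ℂ) (g * g) := by
      intro g
      have := congrFun hm (g * g)
      simp only [Pi.mul_apply, cj, Finset.sum_apply, Pi.smul_apply, nsmul_eq_mul] at this
      exact this
    simp only [h1]
    rw [Finset.sum_comm, Finset.mul_sum]
    apply Finset.sum_congr rfl
    intro j _
    rw [← Finset.mul_sum]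
    ring
  rw [hL, hR, Complex.re_sum, Complex.natCast_re]
  have hle : ∀ j : IrrCharacter G, ((m j : ℂ) * ((Nat.card G : ℂ)⁻¹ * ∑ s : G, (j : G → ℂ) (s * s))).re
      ≤ ((m j ^ 2 : ℕ) : ℝ) := by
    intro j
    obtain ⟨n, ρ, hρ, hj⟩ := j.2
    rw [← hj]
    have hfs := (frobeniusSchur ρ hρ).1
    have hre : ((Nat.card G : ℂ)⁻¹ * ∑ s : G, ρ.character (s * s)).re ≤ 1 := by
      rcases hfs with h | h | h <;> rw [h] <;> norm_num
    have hz : ((m j : ℂ) * ((Nat.card G : ℂ)⁻¹ * ∑ s : G, ρ.character (s * s))).re =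
        (m j : ℝ) * ((Nat.card G : ℂ)⁻¹ * ∑ s : G, ρ.character (s * s)).re := by
      rw [Complex.mul_re, Complex.natCast_re, Complex.natCast_im, zero_mul, sub_zero]
    rw [hz]
    push_cast
    have hm0 : (0 : ℝ) ≤ m j := Nat.cast_nonneg _
    have h2 : (m j : ℝ) ≤ (m j : ℝ) ^ 2 := by
      rcases Nat.eq_zero_or_pos (m j) with h0 | h0
      · rw [h0]; simp
      · have : (1 : ℝ) ≤ m j := by exact_mod_cast h0
        nlinarith
    nlinarith
  calc _ ≤ ∑ j : IrrCharacter G, ((m j ^ 2 : ℕ) : ℝ) := Finset.sum_le_sum fun j _ => hle j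
    _ = _ := by push_cast; rfl

/-- The constituent of the square. -/
theorem inner_sq_cj_ne_zero {ξ : G → ℂ} (hξ : IsIrrCharacter G ξ)
    (hid : ∀ g, ξ (g * g) = ξ g * ξ g - 2 * conj (ξ g)) :
    classInner (ξ * ξ) (cj ξ) ≠ 0 := by
  intro h0
  have h0' := inner_swap h0
  have hψ : (fun g => ξ (g * g)) = (ξ * ξ) - ((2 : ℂ) • cj ξ) := by
    funext g
    simp [hid, cj]
  have h1 := psi_le hξ
  rw [← i1, hψ] at h1
  rw [classInner_sub_left, classInner_sub_right, classInner_sub_right, classInner_smul_left,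
    classInner_smul_right, classInner_smul_left, classInner_smul_right, h0, h0',
    self_irr (cj_irr hξ)] at h1
  simp at h1
  norm_num at h1

end General

section Invol

variable {H : Type u'} [Group H] [Fintype H] {t : H}

/-- Values at an involution. -/
theorem inv_cases (hH : Hyp H t) (ht : t ^ 2 = 1) {χ : H → ℂ} (hχ : IsIrrCharacter H χ)
    (hne : χ ≠ one' H) : ∃ d : ℕ, 3 ≤ d ∧ χ 1 = d ∧ (χ t = (d : ℂ) - 4 ∨ (χ t = 0 ∧ 4 ∣ d)) := by
  obtain ⟨d, hd, h1⟩ := hH.deg_ge_two hχ hne
  have hχ' := hχ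
  obtain ⟨n, ρ, hρ, rfl⟩ := hχ
  have hnd : n = d := by
    have h3 := charDegree_character ρ
    rw [charDegree_eq_of_eq_natCast h1] at h3
    simpa using h3.symm
  subst hnd
  obtain ⟨r, hr⟩ := inv_value hH.perfect ρ ht
  have hc := hH _ hχ' hne
  by_cases h2 : n = 2
  · subst h2
    exfalso
    rcases hc with h3 | h3
    · exact hH.no_two hχ' (by simpa using h1) (by
        rw [h1] at h3
        push_cast at h3
        linear_combination -h3)
    · rw [h3] at hr
      have h4 : ((2 : ℕ) : ℂ) = ((4 * r : ℕ) : ℂ) := by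
        push_cast
        push_cast at hr
        linear_combination -hr
      have h5 : 2 = 4 * r := by exact_mod_cast h4
      omega
  · refine ⟨n, by omega, h1, ?_⟩
    rcases hc with h3 | h3
    · left
      rw [h1] at h3
      linear_combination -h3
    · right
      refine ⟨h3, ⟨r, ?_⟩⟩
      rw [h3] at hr
      have h4 : ((n : ℕ) : ℂ) = ((4 * r : ℕ) : ℂ) := by
        push_cast
        linear_combination -hr
      exact_mod_cast h4

theorem deg3_value (hH : Hyp H t) (ht : t ^ 2 = 1) {χ : H → ℂ} (hχ : IsIrrCharacter H χ)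
    (h1 : χ 1 = 3) : χ t = -1 := by
  have hne : χ ≠ one' H := ne_of_deg (by rw [h1]; simp [one'])
  obtain ⟨d, hd, h2, h3⟩ := inv_cases hH ht hχ hne
  have hd3 : d = 3 := by
    rw [h1] at h2
    have : ((3 : ℕ) : ℂ) = (d : ℂ) := by simpa using h2
    exact_mod_cast this.symm
  subst hd3
  rcases h3 with h3 | ⟨-, h3⟩
  · rw [h3]; norm_num
  · omega

theorem value_cases (hH : Hyp H t) (ht : t ^ 2 = 1) {χ : H → ℂ} (hχ : IsIrrCharacter H χ) :
    χ 1 = 3 ∨ ∃ k : ℕ, χ t = k := by
  by_cases hne : χ = one' H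
  · right
    refine ⟨1, ?_⟩
    rw [hne]
    simp [one']
  · obtain ⟨d, hd, h2, h3⟩ := inv_cases hH ht hχ hne
    by_cases hd3 : d = 3
    · left
      subst hd3
      simpa using h2
    · right
      rcases h3 with h3 | ⟨h3, -⟩
      · refine ⟨d - 4, ?_⟩
        rw [h3]
        have hd4 : 4 ≤ d := by omega
        rw [Nat.cast_sub hd4]
        norm_num
      · exact ⟨0, by simpa using h3⟩

theorem low_zero (hH : Hyp H t) (ht : t ^ 2 = 1) {φ : H → ℂ} (hφ : IsCharacter H φ)
    (h0 : classInner φ (one' H) = 0) {k : ℕ} (h1 : φ 1 = k) (hk : k ≤ 2) : k = 0 := by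
  by_contra hk0
  have hφ0 : φ ≠ 0 := by
    rintro rfl
    have : (k : ℂ) = 0 := by simpa using h1.symm
    exact hk0 (by exact_mod_cast this)
  obtain ⟨θ, hθ, hne⟩ := exists_irr_constituent (isClassFunction_of_isCharacter hφ) hφ0
  have hθ1 : θ ≠ one' H := by
    rintro rfl
    exact hne h0
  obtain ⟨d, hd, h2, -⟩ := inv_cases hH ht hθ hθ1
  have := deg_le_of_constituent hφ hθ hne h1 h2
  omega

theorem irr_of_three (hH : Hyp H t) (ht : t ^ 2 = 1) {φ : H → ℂ} (hφ : IsCharacter H φ)
    (h0 : classInner φ (one' H) = 0) (h1 : φ 1 = 3) : IsIrrCharacter H φ := by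
  have hφ0 : φ ≠ 0 := by
    rintro rfl
    norm_num at h1
  obtain ⟨θ, hθ, hne⟩ := exists_irr_constituent (isClassFunction_of_isCharacter hφ) hφ0
  have hθ1 : θ ≠ one' H := by
    rintro rfl
    exact hne h0
  obtain ⟨d, hd, h2, -⟩ := inv_cases hH ht hθ hθ1
  have := eq_of_constituent_of_deg_le hφ hθ hne (a := 3) (by simpa using h1) h2 hd
  rw [this]
  exact hθ

theorem irr_of_five (hH : Hyp H t) (ht : t ^ 2 = 1) {φ : H → ℂ} (hφ : IsCharacter H φ)
    (h0 : classInner φ (one' H) = 0) (h1 : φ 1 = 5) : IsIrrCharacter H φ := by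
  have hφ0 : φ ≠ 0 := by
    rintro rfl
    norm_num at h1
  obtain ⟨θ, hθ, hne⟩ := exists_irr_constituent (isClassFunction_of_isCharacter hφ) hφ0
  have hθ1 : θ ≠ one' H := by
    rintro rfl
    exact hne h0
  obtain ⟨d, hd, h2, -⟩ := inv_cases hH ht hθ hθ1
  have hd5 := deg_le_of_constituent hφ hθ hne (a := 5) (by simpa using h1) h2
  by_cases h5 : d = 5
  · subst h5
    have := eq_of_constituent_of_deg_le hφ hθ hne (a := 5) (by simpa using h1) h2 le_rfl
    rw [this]
    exact hθ
  · exfalso
    have hsub := isCharacter_sub_of_classInner_ne_zero hφ hθ hne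
    have h3 := low_zero hH ht hsub (k := 5 - d) (by
      rw [classInner_sub_left, h0, ne_irr hθ one_irr hθ1, sub_zero]) (by
      simp only [Pi.sub_apply]
      rw [h1, h2, Nat.cast_sub hd5]
      norm_num) (by omega)
    omega

theorem irr_of_six (hH : Hyp H t) (ht : t ^ 2 = 1) {φ : H → ℂ} (hφ : IsCharacter H φ)
    (h0 : classInner φ (one' H) = 0) (h1 : φ 1 = 6) (hv : φ t ≠ -2) : IsIrrCharacter H φ := by
  have hφ0 : φ ≠ 0 := by
    rintro rfl
    norm_num at h1
  obtain ⟨θ, hθ, hne⟩ := exists_irr_constituent (isClassFunction_of_isCharacter hφ) hφ0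
  have hθ1 : θ ≠ one' H := by
    rintro rfl
    exact hne h0
  obtain ⟨d, hd, h2, -⟩ := inv_cases hH ht hθ hθ1
  have hd6 := deg_le_of_constituent hφ hθ hne (a := 6) (by simpa using h1) h2
  have hsub := isCharacter_sub_of_classInner_ne_zero hφ hθ hne
  have hin : classInner (φ - θ) (one' H) = 0 := by
    rw [classInner_sub_left, h0, ne_irr hθ one_irr hθ1, sub_zero]
  have hdeg : (φ - θ) 1 = ((6 - d : ℕ) : ℂ) := by
    simp only [Pi.sub_apply]
    rw [h1, h2, Nat.cast_sub hd6]
    norm_num
  by_cases h6 : d = 6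
  · subst h6
    have := eq_of_constituent_of_deg_le hφ hθ hne (a := 6) (by simpa using h1) h2 le_rfl
    rw [this]
    exact hθ
  · by_cases h3 : d = 3
    · exfalso
      subst h3
      have h4 := irr_of_three hH ht hsub hin (by rw [hdeg]; norm_num)
      have h5 := deg3_value hH ht h4 (by rw [hdeg]; norm_num)
      have h6 := deg3_value hH ht hθ (by rw [h2]; norm_num)
      apply hv
      simp only [Pi.sub_apply] at h5
      rw [h6] at h5
      linear_combination h5
    · exfalso
      have := low_zero hH ht hsub hin hdeg (by omega)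
      omega

/-- The degree three identity in the form we use. -/
theorem deg3_id (hperf : commutator H = ⊤) {ξ : H → ℂ} (hξ : IsIrrCharacter H ξ) (h1 : ξ 1 = 3)
    (g : H) : ξ (g * g) = ξ g * ξ g - 2 * conj (ξ g) := by
  obtain ⟨n, ρ, hρ, rfl⟩ := hξ
  have hn : n = 3 := by
    have h3 := charDegree_character ρ
    rw [charDegree_eq_of_eq_natCast (n := 3) (by simpa using h1)] at h3
    simpa using h3.symm
  subst hn
  have := deg3_identity hperf ρ g
  rw [pow_two, pow_two] at this
  exact this

/-- The multiplicity bound. -/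
theorem mult_le_one {Z σ : H → ℂ} (hZ : IsCharacter H Z) (hσ : IsIrrCharacter H σ)
    (hZ1 : Z 1 = 9) (hσ1 : σ 1 = 6) {m : ℕ} (hm : classInner Z σ = m) : m ≤ 1 := by
  by_contra hlt
  have h0 : classInner Z σ ≠ 0 := by
    rw [hm]
    intro h
    have : m = 0 := by exact_mod_cast h
    omega
  have h1 := isCharacter_sub_of_classInner_ne_zero hZ hσ h0
  have h2 : classInner (Z - σ) σ ≠ 0 := by
    rw [classInner_sub_left, hm, self_irr hσ]
    intro h
    have : ((m : ℕ) : ℂ) = ((1 : ℕ) : ℂ) := by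
      push_cast
      linear_combination h
    have : m = 1 := by exact_mod_cast this
    omega
  have h3 := isCharacter_sub_of_classInner_ne_zero h1 hσ h2
  obtain ⟨n, hn⟩ := exists_deg_of_isCharacter h3
  simp only [Pi.sub_apply] at hn
  rw [hZ1, hσ1] at hn
  have h4 := congrArg Complex.re hn
  norm_num at h4
  have : (0 : ℝ) ≤ n := Nat.cast_nonneg n
  linarith

/-- Every irreducible character of degree three is real. -/
theorem real_of_deg3 (hH : Hyp H t) (ht : t ^ 2 = 1) {ξ : H → ℂ} (hξ : IsIrrCharacter H ξ)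
    (h1 : ξ 1 = 3) : cj ξ = ξ := by
  classical
  by_contra hne
  haveI : Finite (IrrCharacter H) := finite_irrCharacter
  letI : Fintype (IrrCharacter H) := Fintype.ofFinite _
  have hperf := hH.perfect
  have hξc := isCharacter_of_isIrrCharacter hξ
  have hb := cj_irr hξ
  have hbc := isCharacter_of_isIrrCharacter hb
  have hb1 : cj ξ 1 = 3 := by
    simp only [cj, h1]
    simp [Complex.ext_iff]
  have hξt := deg3_value hH ht hξ h1
  have hbt : cj ξ t = -1 := by simp [cj, hξt]
  have hm := inner_sq_cj_ne_zero hξ (deg3_id hperf hξ h1)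
  have hXX := mul_char hξc hξc
  have hσ := isCharacter_sub_of_classInner_ne_zero hXX hb hm
  have hσ1 : (ξ * ξ - cj ξ) 1 = 6 := by
    simp only [Pi.sub_apply, Pi.mul_apply]
    rw [h1, hb1]
    norm_num
  have hσt : (ξ * ξ - cj ξ) t = 2 := by
    simp only [Pi.sub_apply, Pi.mul_apply]
    rw [hξt, hbt]
    norm_num
  have hσ0 : classInner (ξ * ξ - cj ξ) (one' H) = 0 := by
    rw [classInner_sub_left, i2, ne_irr hξ hb (Ne.symm hne),
      ne_irr hb one_irr (ne_of_deg (by rw [hb1]; simp [one'])), sub_zero]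
  have hσi := irr_of_six hH ht hσ hσ0 hσ1 (by rw [hσt]; norm_num)
  have hσb : (ξ * ξ - cj ξ) ≠ cj ξ := ne_of_deg (by rw [hσ1, hb1]; norm_num)
  have hw : classInner (ξ * ξ) (ξ * ξ) = 2 := by
    have e : ξ * ξ = (ξ * ξ - cj ξ) + cj ξ := by simp
    rw [e, classInner_add_left, classInner_add_right, classInner_add_right, self_irr hσi,
      self_irr hb, ne_irr hσi hb hσb, ne_irr hb hσi (Ne.symm hσb)]
    norm_num
  -- `τ`
  have hX := mul_char hξc hbc
  have hX1 : classInner (ξ * cj ξ) (one' H) = 1 := by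
    rw [i3, self_irr hξ]
  have hτ := isCharacter_sub_of_classInner_ne_zero hX one_irr (by rw [hX1]; norm_num)
  have hτ0 : classInner (ξ * cj ξ - one' H) (ξ * cj ξ - one' H) = 1 := by
    rw [classInner_sub_left, classInner_sub_right, classInner_sub_right, ← i1, hw, hX1, one_self,
      ← classInner_conj (ξ * cj ξ) (one' H), hX1]
    simp
    norm_num
  have hτi := isIrrCharacter_of_classInner_self_eq_one hτ hτ0
  have hτ1 : (ξ * cj ξ - one' H) 1 = 8 := by
    simp only [Pi.sub_apply, Pi.mul_apply, one']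
    rw [h1, hb1]
    norm_num
  -- the product `ξ σ`
  have hY := mul_char hξc hσ
  have hYt : (ξ * (ξ * ξ - cj ξ)) t = -2 := by
    simp only [Pi.mul_apply]
    rw [hσt, hξt]
    norm_num
  obtain ⟨m, hmY⟩ := exists_nat_combination hY
  have hmi : ∀ i : IrrCharacter H, classInner (ξ * (ξ * ξ - cj ξ)) i = m i := by
    intro i
    rw [hmY]
    exact classInner_of_nat_combination m i
  -- multiplicities of degree three constituents
  have hle1 : ∀ i : IrrCharacter H, (i : H → ℂ) 1 = 3 → m i ≤ 1 := by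
    intro i hi
    have hZ := mul_char hbc (isCharacter_of_isIrrCharacter i.2)
    refine mult_le_one hZ hσi (by
      simp only [Pi.mul_apply]
      rw [hb1, hi]
      norm_num) hσ1 (m := m i) ?_
    have h2 := hmi i
    rw [i4] at h2
    rw [← classInner_conj, h2, Complex.conj_natCast]
  let B : Finset (IrrCharacter H) := Finset.univ.filter (fun i => (i : H → ℂ) 1 = 3 ∧ m i ≠ 0)
  have hsumt : (-2 : ℝ) = ∑ i : IrrCharacter H, (m i : ℝ) * ((i : H → ℂ) t).re := by
    have h2 := congrFun hmY t
    rw [hYt] at h2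
    simp only [Finset.sum_apply, Pi.smul_apply] at h2
    simp only [nsmul_eq_mul] at h2
    have h3 := congrArg Complex.re h2
    rw [Complex.re_sum] at h3
    simp only [Complex.mul_re, Complex.natCast_re, Complex.natCast_im, zero_mul, sub_zero] at h3
    rw [← h3]
    norm_num
  have hlow : ∀ i : IrrCharacter H, (if i ∈ B then (-1 : ℝ) else 0) ≤ (m i : ℝ) * ((i : H → ℂ) t).re := by
    intro i
    rcases value_cases hH ht i.2 with h3 | ⟨k, hk⟩
    · have h4 := deg3_value hH ht i.2 h3
      rw [h4]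
      have h5 := hle1 i h3
      by_cases h6 : m i = 0
      · have : i ∉ B := by simp [B, h6]
        simp [this, h6]
      · have : i ∈ B := by simp [B, h3, h6]
        have h7 : m i = 1 := by omega
        simp [this, h7]
    · rw [hk]
      have h3 : (0 : ℝ) ≤ (m i : ℝ) * k := by positivity
      simp only [Complex.natCast_re]
      split_ifs
      · linarith
      · exact h3
  have hcard : 2 ≤ B.card := by
    have h2 := Finset.sum_le_sum (s := Finset.univ) fun i (_ : i ∈ Finset.univ) => hlow i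
    rw [← hsumt, Finset.sum_ite_mem, Finset.univ_inter] at h2
    simp at h2
    exact_mod_cast h2
  obtain ⟨a, ha, b, hb', hab⟩ := Finset.one_lt_card.mp (by omega : 1 < B.card)
  have ha' := (Finset.mem_filter.mp ha).2
  have hb'' := (Finset.mem_filter.mp hb').2
  have hab' : (a : H → ℂ) ≠ (b : H → ℂ) := fun h => hab (Subtype.ext h)
  have hac := isCharacter_of_isIrrCharacter a.2
  have hbc' := isCharacter_of_isIrrCharacter b.2
  have hconst : ∀ i : IrrCharacter H, m i ≠ 0 → classInner (cj ξ * (i : H → ℂ)) (ξ * ξ - cj ξ) ≠ 0 := by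
    intro i hi
    rw [← classInner_conj, ← i4, hmi, Complex.conj_natCast]
    exact_mod_cast hi
  have hcommon := inner_ne_zero_of_common (mul_char hbc hac) (mul_char hbc hbc') hσi
    (hconst a ha'.2) (hconst b hb''.2)
  rw [i5] at hcommon
  have hW := mul_char hbc' (cj_char hac)
  have hWone : classInner ((b : H → ℂ) * cj (a : H → ℂ)) (one' H) = 0 := by
    rw [i3]
    exact ne_irr b.2 a.2 (Ne.symm hab')
  have eX : ξ * cj ξ = (ξ * cj ξ - one' H) + one' H := by simp
  have hτW : classInner ((b : H → ℂ) * cj (a : H → ℂ)) (ξ * cj ξ - one' H) ≠ 0 := by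
    apply classInner_ne_zero_comm
    intro h0
    apply hcommon
    rw [eX, classInner_add_left, h0, zero_add]
    exact inner_swap hWone
  have hsub := isCharacter_sub_of_classInner_ne_zero hW hτi hτW
  have hsub1 : ((b : H → ℂ) * cj (a : H → ℂ) - (ξ * cj ξ - one' H)) 1 = 1 := by
    rw [Pi.sub_apply, hτ1]
    simp only [Pi.mul_apply, cj]
    rw [ha'.1, hb''.1]
    have c3 : conj (3 : ℂ) = 3 := by simp [Complex.ext_iff]
    rw [c3]
    norm_num
  have hlin := hH.linear_eq hsub hsub1
  have hfin : classInner ((b : H → ℂ) * cj (a : H → ℂ)) (one' H) = 1 := by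
    have e2 : (b : H → ℂ) * cj (a : H → ℂ) = (ξ * cj ξ - one' H) + one' H := by
      funext g
      have := congrFun hlin g
      simp only [Pi.sub_apply, Pi.add_apply] at this ⊢
      simp only [one'] at this ⊢
      linear_combination this
    rw [e2, classInner_add_left, one_self, ne_irr hτi one_irr (ne_of_deg (by
      rw [hτ1]; simp [one'])), zero_add]
  rw [hWone] at hfin
  norm_num at hfin

/-- The character `ξ² - ξ - 1` is irreducible of degree five. -/
theorem kappa_irr (hH : Hyp H t) (ht : t ^ 2 = 1) {ξ : H → ℂ} (hξ : IsIrrCharacter H ξ)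
    (h1 : ξ 1 = 3) : IsIrrCharacter H (ξ * ξ - ξ - one' H) := by
  have hr := real_of_deg3 hH ht hξ h1
  have hξc := isCharacter_of_isIrrCharacter hξ
  have hm := inner_sq_cj_ne_zero hξ (deg3_id hH.perfect hξ h1)
  rw [hr] at hm
  have hσ := isCharacter_sub_of_classInner_ne_zero (mul_char hξc hξc) hξ hm
  have h0 : classInner ξ (one' H) = 0 := ne_irr hξ one_irr (ne_of_deg (by rw [h1]; simp [one']))
  have hσ0 : classInner (ξ * ξ - ξ) (one' H) = 1 := by
    rw [classInner_sub_left, i2, hr, h0, self_irr hξ, sub_zero]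
  have hκ := isCharacter_sub_of_classInner_ne_zero hσ one_irr (by rw [hσ0]; norm_num)
  refine irr_of_five hH ht hκ ?_ ?_
  · rw [classInner_sub_left, hσ0, one_self, sub_self]
  · simp only [Pi.sub_apply, Pi.mul_apply, one']
    rw [h1]
    norm_num

/-- **Theorem C**: two characters of degree three have the same kernel. -/
theorem same_kernel (hH : Hyp H t) (ht : t ^ 2 = 1) {ξ ζ : H → ℂ} (hξ : IsIrrCharacter H ξ)
    (hζ : IsIrrCharacter H ζ) (h1 : ξ 1 = 3) (h2 : ζ 1 = 3) (g : H) (hg : ξ g = 3) : ζ g = 3 := by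
  by_cases hne : ξ = ζ
  · rw [← hne]
    exact hg
  have hξc := isCharacter_of_isIrrCharacter hξ
  have hζc := isCharacter_of_isIrrCharacter hζ
  have hr1 := real_of_deg3 hH ht hξ h1
  have hr2 := real_of_deg3 hH ht hζ h2
  have hκ1 := kappa_irr hH ht hξ h1
  have hκ2 := kappa_irr hH ht hζ h2
  have hd1 : (ξ * ξ - ξ - one' H) 1 = 5 := by
    simp only [Pi.sub_apply, Pi.mul_apply, one']
    rw [h1]
    norm_num
  have hd2 : (ζ * ζ - ζ - one' H) 1 = 5 := by
    simp only [Pi.sub_apply, Pi.mul_apply, one']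
    rw [h2]
    norm_num
  have hone1 : (1 : ℂ) ≠ 3 := by norm_num
  have hone5 : (1 : ℂ) ≠ 5 := by norm_num
  have h35 : (3 : ℂ) ≠ 5 := by norm_num
  have hκeq : ξ * ξ - ξ - one' H = ζ * ζ - ζ - one' H := by
    by_contra hκne
    have hin : classInner (ξ * ζ) (ξ * ζ) = 1 := by
      have e1 : classInner (ξ * ζ) (ξ * ζ) = classInner (ξ * ξ) (ζ * ζ) := by
        simp only [classInner, Pi.mul_apply, map_mul]
        congr 1
        apply Finset.sum_congr rfl
        intro g _
        have h3 : conj (ξ g) = ξ g := congrFun hr1 g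
        have h4 : conj (ζ g) = ζ g := congrFun hr2 g
        rw [h3, h4]
        ring
      have e2 : ξ * ξ = one' H + ξ + (ξ * ξ - ξ - one' H) := by
        funext g
        simp only [Pi.add_apply, Pi.sub_apply, Pi.mul_apply]
        ring
      have e3 : ζ * ζ = one' H + ζ + (ζ * ζ - ζ - one' H) := by
        funext g
        simp only [Pi.add_apply, Pi.sub_apply, Pi.mul_apply]
        ring
      rw [e1, e2, e3]
      simp only [classInner_add_left, classInner_add_right]
      rw [one_self, ne_irr one_irr hζ (ne_of_deg (by rw [h2]; simpa [one'] using hone1)),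
        ne_irr one_irr hκ2 (ne_of_deg (by rw [hd2]; simpa [one'] using hone5)),
        ne_irr hξ one_irr (ne_of_deg (by rw [h1]; simpa [one'] using hone1.symm)),
        ne_irr hξ hζ hne, ne_irr hξ hκ2 (ne_of_deg (by rw [h1, hd2]; exact h35)),
        ne_irr hκ1 one_irr (ne_of_deg (by rw [hd1]; simpa [one'] using hone5.symm)),
        ne_irr hκ1 hζ (ne_of_deg (by rw [hd1, h2]; exact h35.symm)), ne_irr hκ1 hκ2 hκne]
      ring
    have hirr := isIrrCharacter_of_classInner_self_eq_one (mul_char hξc hζc) hin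
    have hv1 : (ξ * ζ) 1 = 9 := by
      simp only [Pi.mul_apply]
      rw [h1, h2]
      norm_num
    have hv2 : (ξ * ζ) t = 1 := by
      simp only [Pi.mul_apply]
      rw [deg3_value hH ht hξ h1, deg3_value hH ht hζ h2]
      norm_num
    rcases hH _ hirr (ne_of_deg (by rw [hv1]; norm_num)) with h3 | h3
    · rw [hv1, hv2] at h3
      norm_num at h3
    · rw [hv2] at h3
      norm_num at h3
  have h3 := congrFun hκeq g
  simp only [Pi.sub_apply, Pi.mul_apply, one'] at h3
  rw [hg] at h3
  have h4 : (ζ g - 3) * (ζ g + 2) = 0 := by linear_combination -h3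
  rcases mul_eq_zero.mp h4 with h5 | h5
  · linear_combination h5
  · exfalso
    have h6 : ζ g = -2 := by linear_combination h5
    have h7 := deg3_id hH.perfect hζ h2 g
    rw [h6] at h7
    have h8 : ζ (g * g) = 8 := by
      have c2 : conj (-2 : ℂ) = -2 := by simp [Complex.ext_iff]
      rw [h7, c2]
      norm_num
    have h9 := norm_le_of_deg hζc (n := 3) (by simpa using h2) (g * g)
    rw [h8] at h9
    norm_num at h9

end Invol

end Cfsg.Agent.Lib.ChiFour.Tensor
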