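import Mathlib
import Cfsg.Agent.Lib.ChiFour.Tensor
import Cfsg.Agent.Lib.ChiFour.SO3
import Cfsg.Agent.Lib.ChiFour.A5

/-!
# Characters with `χ(1) - χ(u) = 4` or `χ(u) = 0`: the quotient of order 60
-/

set_option autoImplicit false
set_option linter.all false

namespace Cfsg.Agent.Lib.ChiFour.Transfer

open Cfsg Module
open Cfsg.Agent.Lib.Char.Basic Cfsg.Agent.Lib.Char.Ortho Cfsg.Agent.Lib.Char.Complete
open Cfsg.Agent.Lib.Char.Linear Cfsg.Agent.Lib.Char.Clifford Cfsg.Agent.Lib.Char.Degree
open Cfsg.Agent.Lib.ChiFour.Basic Cfsg.Agent.Lib.ChiFour.Tensor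
open scoped ComplexConjugate

universe u'

variable {G : Type u'} [Group G] [Fintype G] {u : G}

theorem xi_sq (h : Hyp G u) {ξ : G → ℂ} (hξ : IsIrrCharacter G ξ) (h1 : ξ 1 = 3) (hv : ξ u = -1) :
    ξ (u * u) = 3 := by
  have c1 : conj (-1 : ℂ) = -1 := by simp [Complex.ext_iff]
  rw [deg3_id h.perfect hξ h1, hv, c1]
  norm_num

theorem exists_descend (h : Hyp G u) {ξ : G → ℂ} (hξ : IsIrrCharacter G ξ) (h1 : ξ 1 = 3)
    (hv : ξ u = -1) :
    ∃ φ : G ⧸ Subgroup.normalClosure ({u * u} : Set G) → ℂ,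
      IsIrrCharacter (G ⧸ Subgroup.normalClosure ({u * u} : Set G)) φ ∧
        ξ = φ ∘ QuotientGroup.mk' (Subgroup.normalClosure ({u * u} : Set G)) := by
  have hξc := isCharacter_of_isIrrCharacter hξ
  refine isIrrCharacter_descend _ (QuotientGroup.mk'_surjective _) hξ ?_
  intro k hk
  rw [QuotientGroup.ker_mk'] at hk
  have hle : Subgroup.normalClosure ({u * u} : Set G) ≤ charKer hξc := by
    apply Subgroup.normalClosure_le_normal
    intro x hx
    rw [Set.mem_singleton_iff] at hx
    subst hx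
    show ξ (u * u) = ξ 1
    rw [xi_sq h hξ h1 hv, h1]
  exact hle hk

/-- The hypotheses on the quotient by the normal closure of the square. -/
theorem quot_facts (h : Hyp G u) :
    Hyp (G ⧸ Subgroup.normalClosure ({u * u} : Set G))
      (QuotientGroup.mk' (Subgroup.normalClosure ({u * u} : Set G)) u) ∧
    (QuotientGroup.mk' (Subgroup.normalClosure ({u * u} : Set G)) u) ^ 2 = 1 := by
  refine ⟨h.comp _ (QuotientGroup.mk'_surjective _), ?_⟩
  rw [← map_pow, pow_two, QuotientGroup.mk'_apply, QuotientGroup.eq_one_iff]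
  exact Subgroup.subset_normalClosure rfl

/-- Characters of degree three with value `-1` at `u` are real. -/
theorem real_G (h : Hyp G u) {ξ : G → ℂ} (hξ : IsIrrCharacter G ξ) (h1 : ξ 1 = 3) (hv : ξ u = -1) :
    cj ξ = ξ := by
  letI : Fintype (G ⧸ Subgroup.normalClosure ({u * u} : Set G)) := Fintype.ofFinite _
  obtain ⟨φ, hφ, e⟩ := exists_descend h hξ h1 hv
  obtain ⟨hH, ht⟩ := quot_facts h
  have hφ1 : φ 1 = 3 := by
    have := congrFun e 1
    rw [h1] at this
    simpa using this.symm
  have h2 := real_of_deg3 hH ht hφ hφ1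
  funext g
  have h3 := congrFun h2 (QuotientGroup.mk' _ g)
  have h4 := congrFun e g
  simp only [cj, Function.comp] at h3 h4 ⊢
  rw [h4, h3]

/-- Characters of degree three with value `-1` at `u` have the same kernel. -/
theorem same_kernel_G (h : Hyp G u) {ξ ζ : G → ℂ} (hξ : IsIrrCharacter G ξ) (h1 : ξ 1 = 3)
    (hv : ξ u = -1) (hζ : IsIrrCharacter G ζ) (h2 : ζ 1 = 3) (hw : ζ u = -1) (g : G) (hg : ξ g = 3) :
    ζ g = 3 := by
  letI : Fintype (G ⧸ Subgroup.normalClosure ({u * u} : Set G)) := Fintype.ofFinite _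
  obtain ⟨φ, hφ, e⟩ := exists_descend h hξ h1 hv
  obtain ⟨ψ, hψ, e'⟩ := exists_descend h hζ h2 hw
  obtain ⟨hH, ht⟩ := quot_facts h
  have hφ1 : φ 1 = 3 := by
    have := congrFun e 1
    rw [h1] at this
    simpa using this.symm
  have hψ1 : ψ 1 = 3 := by
    have := congrFun e' 1
    rw [h2] at this
    simpa using this.symm
  have h3 := congrFun e g
  have h4 := congrFun e' g
  simp only [Function.comp] at h3 h4
  rw [h4]
  apply same_kernel hH ht hφ hψ hφ1 hψ1
  rw [← h3]
  exact hg

/-- The quotient by the kernel has order 60. -/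
theorem card_quot (h : Hyp G u) {ξ : G → ℂ} (hξ : IsIrrCharacter G ξ) (h1 : ξ 1 = 3)
    (hv : ξ u = -1) : Nat.card (G ⧸ charKer (isCharacter_of_isIrrCharacter hξ)) = 60 := by
  have hξc := isCharacter_of_isIrrCharacter hξ
  obtain ⟨φ, hφ, e⟩ := isIrrCharacter_descend (QuotientGroup.mk' (charKer hξc))
    (QuotientGroup.mk'_surjective _) hξ (by
      intro k hk
      rw [QuotientGroup.ker_mk'] at hk
      exact hk)
  have hφ1 : φ 1 = 3 := by
    have := congrFun e 1
    rw [h1] at this
    simpa using this.symm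
  obtain ⟨n, ρ, hρ, rfl⟩ := hφ
  have hn : n = 3 := by
    have h3 := charDegree_character ρ
    rw [charDegree_eq_of_eq_natCast (n := 3) (by simpa using hφ1)] at h3
    simpa using h3.symm
  subst hn
  haveI := hρ
  have hperf : commutator (G ⧸ charKer hξc) = ⊤ :=
    Cfsg.Agent.Lib.Zassen.Unique.perf_commutator_map h.perfect (QuotientGroup.mk' _)
      (QuotientGroup.mk'_surjective _)
  refine Cfsg.Agent.Lib.ChiFour.SO3.card_eq_sixty hperf ρ ?_ ?_
  · intro x
    obtain ⟨g, rfl⟩ := QuotientGroup.mk'_surjective _ x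
    have h2 := congrFun e g
    simp only [Function.comp] at h2
    rw [← h2]
    have h3 := congrFun (real_G h hξ h1 hv) g
    exact Complex.conj_eq_iff_im.mp h3
  · intro x hx
    obtain ⟨g, rfl⟩ := QuotientGroup.mk'_surjective _ x
    rw [QuotientGroup.mk'_apply, QuotientGroup.eq_one_iff]
    show ξ g = ξ 1
    have h2 := congrFun e g
    simp only [Function.comp] at h2
    rw [h2, h1]
    rw [Representation.character] at hφ1 ⊢
    simp only [QuotientGroup.mk'_apply] at hx ⊢
    rw [hx, ← map_one ρ]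
    exact hφ1

/-- A constituent of a character having `n` in its kernel has `n` in its kernel. -/
theorem constituent_fix {φ χ : G → ℂ} (hφ : IsCharacter G φ) (hχ : IsIrrCharacter G χ)
    (hin : classInner φ χ ≠ 0) (n : G) (hn : φ n = φ 1) : χ n = χ 1 := by
  have hχc := isCharacter_of_isIrrCharacter hχ
  have hs := isCharacter_sub_of_classInner_ne_zero hφ hχ hin
  obtain ⟨a, ha⟩ := exists_deg_of_isCharacter hχc
  obtain ⟨b, hb⟩ := exists_deg_of_isCharacter hs
  have h1 := norm_le_of_deg hχc ha n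
  have h2 := norm_le_of_deg hs hb n
  have h3 : χ n + (φ - χ) n = (a : ℂ) + b := by
    rw [← ha, ← hb]
    simp only [Pi.sub_apply]
    rw [hn]
    ring
  have hre := congrArg Complex.re h3
  simp only [Complex.add_re, Complex.natCast_re] at hre
  have h4 := Complex.re_le_norm (χ n)
  have h5 := Complex.re_le_norm ((φ - χ) n)
  have h6 : (χ n).re = a := by linarith
  have h7 : ‖χ n‖ = a := by
    have := Complex.re_le_norm (χ n)
    linarith
  have h8 : (χ n).im = 0 := by
    have h9 := Complex.sq_norm (χ n)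
    rw [h7, Complex.normSq_apply, h6] at h9
    nlinarith
  rw [ha]
  apply Complex.ext
  · simpa using h6
  · simpa using h8

/-- **Theorem D.** -/
theorem vanish (h : Hyp G u) {ξ : G → ℂ} (hξ : IsIrrCharacter G ξ) (h1 : ξ 1 = 3) (hv : ξ u = -1)
    {χ : G → ℂ} (hχ : IsIrrCharacter G χ) (n : G) (hn : ξ n = 3) (hχn : χ n ≠ χ 1) : χ u = 0 := by
  classical
  by_contra hχu
  haveI : Finite (IrrCharacter G) := finite_irrCharacter
  letI : Fintype (IrrCharacter G) := Fintype.ofFinite _
  have hξc := isCharacter_of_isIrrCharacter hξ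
  have hχc := isCharacter_of_isIrrCharacter hχ
  have hne : χ ≠ fun _ => (1 : ℂ) := by
    rintro rfl
    exact hχn rfl
  have h2 := (h χ hχ hne).resolve_right hχu
  obtain ⟨d, hd, hd1⟩ := h.deg_ge_two hχ hne
  have h3 : χ u = (d : ℂ) - 4 := by
    rw [hd1] at h2
    linear_combination -h2
  have hd5 : 5 ≤ d := by
    by_contra hlt
    have hcases : d = 2 ∨ d = 3 ∨ d = 4 := by omega
    rcases hcases with rfl | rfl | rfl
    · exact h.no_two hχ (by simpa using hd1) (by rw [h3]; norm_num)
    · have h4 := same_kernel_G h hξ h1 hv hχ (by simpa using hd1) (by rw [h3]; norm_num) n hn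
      apply hχn
      rw [h4, hd1]
      norm_num
    · apply hχu
      rw [h3]
      norm_num
  have hY := mul_char hξc hχc
  obtain ⟨m, hm⟩ := exists_nat_combination hY
  have hmi : ∀ i : IrrCharacter G, classInner (ξ * χ) i = m i := by
    intro i
    rw [hm]
    exact classInner_of_nat_combination m i
  have hYu : ∑ i : IrrCharacter G, (m i : ℝ) * ((i : G → ℂ) u).re = 4 - (d : ℝ) := by
    have h4 := congrFun hm u
    simp only [Finset.sum_apply, Pi.smul_apply] at h4
    simp only [nsmul_eq_mul, Pi.mul_apply] at h4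
    rw [hv, h3] at h4
    have h5 := congrArg Complex.re h4
    rw [Complex.re_sum] at h5
    simp only [Complex.mul_re, Complex.natCast_re, Complex.natCast_im, zero_mul, sub_zero] at h5
    rw [← h5]
    simp
  obtain ⟨η, hη⟩ : ∃ η : IrrCharacter G, (m η : ℝ) * ((η : G → ℂ) u).re < 0 := by
    by_contra hcon
    push Not at hcon
    have h4 := Finset.sum_nonneg (s := Finset.univ) fun i (_ : i ∈ Finset.univ) => hcon i
    rw [hYu] at h4
    have : (5 : ℝ) ≤ d := by exact_mod_cast hd5
    linarith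
  have hmη : m η ≠ 0 := by
    intro h0
    rw [h0] at hη
    simp at hη
  have hηre : ((η : G → ℂ) u).re < 0 := by
    by_contra hcon
    push Not at hcon
    have : (0 : ℝ) ≤ (m η : ℝ) * ((η : G → ℂ) u).re := by positivity
    linarith
  have hηne : (η : G → ℂ) ≠ fun _ => (1 : ℂ) := by
    intro h4
    rw [h4] at hηre
    norm_num at hηre
  obtain ⟨e, he, he1⟩ := h.deg_ge_two η.2 hηne
  have hηv : (η : G → ℂ) u = (e : ℂ) - 4 := by
    rcases h _ η.2 hηne with h4 | h4
    · rw [he1] at h4
      linear_combination -h4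
    · rw [h4] at hηre
      norm_num at hηre
  rw [hηv] at hηre
  have he4 : (e : ℝ) < 4 := by
    simpa using hηre
  have he4' : e < 4 := by exact_mod_cast he4
  have he23 : e = 2 ∨ e = 3 := by omega
  rcases he23 with rfl | rfl
  · exact h.no_two η.2 (by simpa using he1) (by rw [hηv]; norm_num)
  · have hη3 : (η : G → ℂ) 1 = 3 := by simpa using he1
    have hηu : (η : G → ℂ) u = -1 := by rw [hηv]; norm_num
    have h4 := same_kernel_G h hξ h1 hv η.2 hη3 hηu n hn
    have hZ := mul_char (cj_char hξc) (isCharacter_of_isIrrCharacter η.2)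
    have hin : classInner (cj ξ * (η : G → ℂ)) χ ≠ 0 := by
      apply classInner_ne_zero_comm
      rw [← i4, hmi]
      exact_mod_cast hmη
    apply hχn
    apply constituent_fix hZ hχ hin n
    simp only [Pi.mul_apply, cj]
    rw [h4, hn, h1, hη3]

/-- The orders of the centralizers agree. -/
theorem card_centralizer_eq (h : Hyp G u) {ξ : G → ℂ} (hξ : IsIrrCharacter G ξ) (h1 : ξ 1 = 3)
    (hv : ξ u = -1) :
    Nat.card (Subgroup.centralizer ({u} : Set G)) =
      Nat.card (Subgroup.centralizer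
        ({(QuotientGroup.mk u : G ⧸ charKer (isCharacter_of_isIrrCharacter hξ))} : Set _)) := by
  classical
  have hξc := isCharacter_of_isIrrCharacter hξ
  set N := charKer hξc with hN
  haveI : Finite (IrrCharacter G) := finite_irrCharacter
  letI : Fintype (IrrCharacter G) := Fintype.ofFinite _
  letI : Fintype (G ⧸ N) := Fintype.ofFinite _
  haveI : Finite (IrrCharacter (G ⧸ N)) := finite_irrCharacter
  letI : Fintype (IrrCharacter (G ⧸ N)) := Fintype.ofFinite _
  let π := QuotientGroup.mk' N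
  have hπ : Function.Surjective π := QuotientGroup.mk'_surjective N
  have s1 := sum_irr_mul_conj (G := G) u u
  have s2 := sum_irr_mul_conj (G := G ⧸ N) (π u) (π u)
  rw [if_pos (IsConj.refl _)] at s1 s2
  let e : IrrCharacter (G ⧸ N) → IrrCharacter G := fun χ =>
    ⟨(χ : G ⧸ N → ℂ) ∘ π, isIrrCharacter_comp π hπ χ.2⟩
  have hinj : Function.Injective e := by
    intro a b hab
    apply Subtype.ext
    funext x
    obtain ⟨g, rfl⟩ := hπ x
    exact congrFun (congrArg Subtype.val hab) g
  have hsum : ∑ χ : IrrCharacter (G ⧸ N), (χ : G ⧸ N → ℂ) (π u) * conj ((χ : G ⧸ N → ℂ) (π u)) =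
      ∑ χ : IrrCharacter G, (χ : G → ℂ) u * conj ((χ : G → ℂ) u) := by
    apply Finset.sum_of_injOn e hinj.injOn (fun _ _ => Finset.mem_univ _)
    · intro χ _ hχ
      have hex : ∃ n, ξ n = 3 ∧ (χ : G → ℂ) n ≠ (χ : G → ℂ) 1 := by
        by_contra hcon
        push Not at hcon
        apply hχ
        obtain ⟨φ, hφ, hφe⟩ := isIrrCharacter_descend π hπ χ.2 (by
          intro k hk
          have hk' : k ∈ N := by
            rw [QuotientGroup.ker_mk'] at hk
            exact hk
          apply hcon k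
          rw [← h1]
          exact hk')
        refine ⟨⟨φ, hφ⟩, Finset.mem_coe.mpr (Finset.mem_univ _), ?_⟩
        exact Subtype.ext hφe.symm
      obtain ⟨n, hn, hχn⟩ := hex
      rw [vanish h hξ h1 hv χ.2 n hn hχn]
      simp
    · intro χ _
      rfl
  rw [s1, s2] at hsum
  exact_mod_cast hsum.symm

/-- The character theoretic part. -/
theorem main_char (h : Hyp G u) (hu : u ≠ 1) :
    ∃ (N : Subgroup G) (_ : N.Normal), Nat.card (G ⧸ N) = 60 ∧ u ∉ N ∧ u * u ∈ N ∧
      Nat.card (Subgroup.centralizer ({u} : Set G)) =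
        Nat.card (Subgroup.centralizer ({(QuotientGroup.mk u : G ⧸ N)} : Set (G ⧸ N))) := by
  obtain ⟨ξ, hξ, h1, hv⟩ := h.exists_xi hu
  have hξc := isCharacter_of_isIrrCharacter hξ
  refine ⟨charKer hξc, inferInstance, card_quot h hξ h1 hv, ?_, ?_, card_centralizer_eq h hξ h1 hv⟩
  · intro h0
    have h2 : ξ u = ξ 1 := h0
    rw [hv, h1] at h2
    norm_num at h2
  · show ξ (u * u) = ξ 1
    rw [xi_sq h hξ h1 hv, h1]

end Cfsg.Agent.Lib.ChiFour.Transfer
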